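import Mathlib

/-! Arithmetic for the characterization of the Suzuki groups by a self-centralization system. -/

set_option autoImplicit false

namespace Cfsg.Lib.HSz

theorem lam {a n D e v K : ℤ} (ha : 0 < a) (hn : 1 < n) (hK : 0 ≤ K) (hv : v = -1 ∨ v = 0) (h0 : D - v ≠ 0)
    (h1 : n ∣ D - v) (h2 : (n - 1) * |D - v| ≤ n * |e|) (h3 : e ^ 2 * K ≤ 4 * a * (D * (D + 1))) :
    (n - 1) ^ 2 * K ≤ 4 * a * (n * (n + 1)) := by
  have e1 : n ≤ |D - v| := Int.le_of_dvd (abs_pos.2 h0) ((dvd_abs _ _).2 h1)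
  have e2 : D * (D + 1) ≤ |D - v| * (|D - v| + 1) := by
    rcases hv with rfl | rfl <;> rcases abs_cases (D - _) with ⟨e, -⟩ | ⟨e, -⟩ <;> rw [e] <;> rw [e] at e1 <;> nlinarith
  generalize |D - v| = E at *
  have e3 : ((n - 1) * E) ^ 2 ≤ (n * |e|) ^ 2 := pow_le_pow_left₀ (by nlinarith) h2 2
  rw [mul_pow, mul_pow, sq_abs] at e3
  have e4 : (n - 1) ^ 2 * E ^ 2 * K ≤ n ^ 2 * (4 * a * (E * (E + 1))) := by
    calc _ ≤ n ^ 2 * e ^ 2 * K := mul_le_mul_of_nonneg_right e3 hK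
      _ = n ^ 2 * (e ^ 2 * K) := by ring
      _ ≤ _ := mul_le_mul_of_nonneg_left (h3.trans (mul_le_mul_of_nonneg_left e2 (by omega))) (sq_nonneg n)
  have e5 : n ^ 2 * (4 * a * (E * (E + 1))) ≤ 4 * a * (n * (n + 1)) * E ^ 2 := by
    have : 0 ≤ 4 * a * n * E * (E - n) := by have : 0 ≤ E - n := by omega
                                             have : 0 ≤ E := by omega
                                             positivity
    nlinarith
  have e6 : 0 < E ^ 2 := by have : 0 < E := by omega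
                            positivity
  exact le_of_mul_le_mul_right (by linarith) e6

theorem eq_of_prod {a y : ℤ} (ha : 0 < a) (h : a * (y * (y + 1)) ≤ 0) : y = 0 ∨ y = -1 := by
  have : y * (y + 1) ≤ 0 := by by_contra! e; nlinarith
  by_contra! e
  rcases lt_or_gt_of_ne e.1 with e1 | e1
  · have : y + 1 < 0 := by omega
    nlinarith
  · nlinarith

theorem small {s D y c v w : ℤ} (hs : 0 < s) (h7 : 7 ∣ s - 1) (hD : 7 ∣ D - 1) (hp : 0 < D * (D + 1))
    (hg : 7 * s * (D * (D + 1)) ≤ 3 * (7 * (9 * 13)) ^ 2) (hc : s * (D - y) ^ 2 = c ^ 2) (h0 : 0 < c)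
    (hy : 7 * s * (y * (y + 1)) ≤ c * (s - 1)) (h2 : 2 ∣ c) (h3 : ¬ 3 ∣ c) (h13 : ¬ 13 ∣ c) (h27 : ¬ 27 ∣ D)
    (hv : v = -1 ∨ v = 0) (hw : w = -1 ∨ w = 0) (hv9 : 9 ∣ D - v) (hw13 : 13 ∣ D - w) : v = -1 ∧ w = -1 := by
  by_contra e
  have e1 : D * (D + 1) ≤ 287469 := by nlinarith
  have e2 : D ≤ 536 := by nlinarith
  have e3 : -537 ≤ D := by nlinarith
  have e4 : D = 260 ∨ D = -468 := by omega
  have e5 : s = 1 := by rcases e4 with rfl | rfl <;> omega
  subst e5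
  rw [one_mul, sq_eq_sq_iff_eq_or_eq_neg] at hc
  have := eq_of_prod (a := 7) (y := y) (by norm_num) (by linarith)
  omega

theorem gen_k {a P s D κ : ℤ} (ha : 5 ≤ a) (hP : 117 ≤ P) (e2 : a ≤ s - 1) (hκ : D + 1 = P * κ) (e5 : κ ≠ 0)
    (e1 : s * (D * κ) ≤ 3 * a * P) : κ = 1 ∨ κ = -1 := by
  obtain rfl : D = P * κ - 1 := by omega
  by_contra! e6
  have e7 : 4 * P - 2 ≤ (P * κ - 1) * κ := by
    rcases lt_or_gt_of_ne e5 with e8 | e8
    · have : 4 ≤ κ * κ := by nlinarith [show κ ≤ -2 by omega]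
      nlinarith
    · have : 2 ≤ κ := by omega
      nlinarith [mul_nonneg (sub_nonneg.2 this) (show 0 ≤ P * (κ + 2) - 1 by nlinarith)]
  have := mul_le_mul (show a + 1 ≤ s by omega) e7 (by omega) (by omega)
  nlinarith

theorem gen_e {r j D y : ℤ} (r0 : 0 < r) (y0 : y ≠ 0) (hj : r * |D| = |D - y| * j) : |D - y| ≤ r * |y| := by
  have e6 := abs_nonneg (D - y)
  by_cases e9 : j = r
  · rw [e9, mul_comm] at hj
    rcases abs_eq_abs.1 (mul_right_cancel₀ r0.ne' hj) with e10 | e10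
    · omega
    · rw [show D - y = -D by omega, show y = 2 * D by omega, abs_neg, abs_mul, abs_two]
      nlinarith [abs_nonneg D]
  · have t1 := abs_sub_abs_le_abs_sub D (D - y)
    have t2 := abs_sub_abs_le_abs_sub (D - y) D
    rw [sub_sub_cancel] at t1
    rw [sub_sub_cancel_left, abs_neg] at t2
    rcases lt_or_gt_of_ne e9 with e10 | e10
    · linarith [mul_le_mul_of_nonneg_left t2 r0.le, mul_le_mul_of_nonneg_left (show j ≤ r - 1 by omega) e6]
    · linarith [mul_le_mul_of_nonneg_left t1 r0.le, mul_le_mul_of_nonneg_left (show r + 1 ≤ j by omega) e6]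

theorem gen_y {a P r D y : ℤ} (ha : 5 ≤ a) (hP : 117 ≤ P) (r0 : 0 < r) (y0 : y ≠ 0) (e8 : |D - y| ≤ r * |y|)
    (hy : a * r ^ 2 * (y * (y + 1)) ≤ |D - y| * r * (r ^ 2 - 1)) (e5 : r ^ 2 * (P - 1) ≤ 3 * a * P)
    (e3 : |D + 1| = P) (e4 : a ≤ P + 2) : False := by
  have y1 : 0 < |y| := abs_pos.2 y0
  have r1 : 0 ≤ r ^ 2 - 1 := by nlinarith
  have e9 : a * |y + 1| ≤ r ^ 2 - 1 := by
    refine le_of_mul_le_mul_left (a := r ^ 2 * |y|) ?_ (by positivity)
    have t1 : y * (y + 1) = |y| * |y + 1| := by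
      rw [← abs_mul, abs_of_nonneg]
      rcases le_or_gt 0 y with t2 | t2
      · positivity
      · exact mul_nonneg_of_nonpos_of_nonpos t2.le (by omega)
    have t2 := mul_le_mul_of_nonneg_right (mul_le_mul_of_nonneg_right e8 r0.le) r1
    rw [t1] at hy; linarith
  have e14 : r ^ 2 < 4 * a := by
    by_contra! t
    have := mul_le_mul_of_nonneg_right t (show 0 ≤ P - 1 by omega)
    nlinarith
  have e10 : |y + 1| ≤ 3 := by
    by_contra! t
    have := mul_le_mul_of_nonneg_left (show 4 ≤ |y + 1| by omega) (show 0 ≤ a by omega)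
    omega
  have e11 : |y| ≤ 4 := by rw [abs_le] at e10 ⊢; omega
  have e12 : P - 3 ≤ |D - y| := by
    have := abs_sub_abs_le_abs_sub (D + 1) (y + 1)
    rw [add_sub_add_right_eq_sub] at this; omega
  have e13 : (P - 3) ^ 2 ≤ (r * 4) ^ 2 :=
    pow_le_pow_left₀ (by omega) (e12.trans (e8.trans (mul_le_mul_of_nonneg_left e11 r0.le))) 2
  clear hy e5 e9 e8
  nlinarith

theorem generic {a P s D y c ι : ℤ} (ha : 5 ≤ a) (ho : Odd a) (hP : 117 ≤ P) (hs : 0 < s) (h1 : a ∣ s - 1)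
    (hD : a ∣ D - 1) (hPD : P ∣ D + 1) (hp : 0 < D * (D + 1)) (hg : a * s * (D * (D + 1)) ≤ 3 * (a * P) ^ 2)
    (hc : s * (D - y) ^ 2 = c ^ 2) (h0 : 0 < c) (hy : a * s * (y * (y + 1)) ≤ c * (s - 1))
    (hι : a * s * (D * (D + 1)) = c * ι) (hιo : Odd ι) (hcop : IsCoprime c (a * P)) : s = 1 ∧ y = 0 := by
  obtain ⟨κ, hκ⟩ := hPD
  have e1 : s * (D * κ) ≤ 3 * a * P :=
    le_of_mul_le_mul_left (a := a * P) (by rw [hκ] at hg; linarith) (by positivity)
  have hs1 : s = 1 := by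
    by_contra e
    have e2 : a ≤ s - 1 := Int.le_of_dvd (by omega) h1
    have e3 := gen_k ha hP e2 hκ (by rintro rfl; simp [hκ] at hp) e1
    have e4 : D * κ = |D| ∧ P - 1 ≤ |D| ∧ |D + 1| = P ∧ a ≤ P + 2 := by
      have := Int.le_of_dvd (b := |D - 1|) (abs_pos.2 (by rcases e3 with rfl | rfl <;> omega)) ((dvd_abs _ _).2 hD)
      rcases e3 with rfl | rfl
      · rw [abs_of_pos (by omega)] at this
        rw [abs_of_pos (by omega), abs_of_pos (by omega)]; omega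
      · rw [abs_of_neg (by omega)] at this
        rw [abs_of_neg (by omega), abs_of_neg (by omega)]; omega
    have e5 : s * (P - 1) ≤ 3 * a * P := (mul_le_mul_of_nonneg_left (e4.1 ▸ e4.2.1) hs.le).trans e1
    have e0 : D - y ≠ 0 := by rintro e; rw [e] at hc; nlinarith
    obtain ⟨r, rfl⟩ : |D - y| ∣ c := (abs_dvd _ _).2 ((Int.pow_dvd_pow_iff two_ne_zero).1 ⟨s, by linarith⟩)
    have e6 := abs_pos.2 e0
    have r0 : 0 < r := (pos_iff_pos_of_mul_pos h0).1 e6
    obtain rfl : s = r ^ 2 := by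
      refine mul_right_cancel₀ (pow_ne_zero 2 e0) ?_
      rw [hc, mul_pow, sq_abs, mul_comm]
    have e7 : a * P * (r * |D|) = |D - y| * ι := by
      refine mul_left_cancel₀ r0.ne' ?_
      rw [hκ] at hι
      rw [← e4.1]; linarith
    obtain ⟨j, hj⟩ : |D - y| ∣ r * |D| := hcop.of_mul_left_left.dvd_of_dvd_mul_left ⟨ι, e7⟩
    by_cases y0 : y = 0
    · have jo : Odd j := by
        have : ι = a * P * j := mul_left_cancel₀ e6.ne' (by rw [← e7, hj]; ring)
        exact (Int.odd_mul.1 (this ▸ hιo)).2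
      rw [y0, sub_zero, mul_comm] at hj
      have e8 : r = j := mul_left_cancel₀ (by omega) hj
      have := Int.le_of_dvd (by omega) (IsCoprime.mul_dvd (IsCoprime.pow_left (m := 3)
        (Int.isCoprime_two_left.2 ho)) (Int.eight_dvd_sq_sub_one_of_odd (e8 ▸ jo)) h1)
      have := mul_le_mul_of_nonneg_right (show 8 * a ≤ r ^ 2 by omega) (show 0 ≤ P - 1 by omega)
      have := mul_le_mul_of_nonneg_left hP (show 0 ≤ a by omega)
      linarith
    · exact gen_y ha hP r0 y0 (gen_e r0 y0 hj) hy e5 e4.2.2.1 e4.2.2.2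
  subst hs1
  refine ⟨rfl, (eq_of_prod (a := a) (by omega) (by linarith)).resolve_right ?_⟩
  rintro rfl
  rw [one_mul, sub_neg_eq_add, hκ, sq_eq_sq_iff_eq_or_eq_neg] at hc
  have : P ∣ c := hc.elim (fun e => ⟨κ, e.symm⟩) fun e => ⟨-κ, by linarith⟩
  have := Int.isUnit_iff.1 (hcop.isUnit_of_dvd' this (dvd_mul_left P a))
  omega

theorem case_one {a b c κ d B : ℤ} (ha : 5 ≤ a) (ho : a % 2 = 1) (hb : 9 ≤ b) (hb4 : b % 4 = 1) (hc : 9 ≤ c)
    (hc4 : c % 4 = 1) (hbc : b ≠ c) (hκ : κ = 1 ∨ κ = -1) (hd : d = b * c - κ)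
    (hE : a * (b + c) - 2 * (b * c) + 4 * κ = 0) (hB : 4 * B = 4 * a * (b * c) - d * (2 * a + b + c - 4))
    (hB1 : a * (b * c) ≤ (d + 1) * B) :
    B = a ∧ d = (a + 1) ^ 2 ∧ b * c = (a + 1) ^ 2 + 1 ∧ (b - c) ^ 2 = 8 * (a + 1) := by
  have hP : 81 ≤ b * c := by nlinarith
  have e1 : 16 ≤ (b - c) ^ 2 := by
    rcases lt_or_gt_of_ne hbc with e | e
    · nlinarith [show 4 ≤ c - b by omega]
    · nlinarith [show 4 ≤ b - c by omega]
  have e2 : 2 * a < b + c := by
    by_contra! e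
    have := mul_le_mul_of_nonneg_right e (show 0 ≤ b + c by omega)
    have : -1 ≤ κ := by omega
    nlinarith
  have e3 : 2 * a + 4 ≤ b + c := by omega
  have d0 : 0 < d := by omega
  have e4 : B ≤ a * κ := by
    have := mul_le_mul_of_nonneg_left (show 4 * a ≤ 2 * a + b + c - 4 by omega) d0.le
    rw [hd] at this hB; linarith
  have e5 : 0 < B := (pos_iff_pos_of_mul_pos ((show 0 < a * (b * c) by positivity).trans_le hB1)).1 (by omega)
  obtain rfl : κ = 1 := by rcases hκ with e | rfl <;> omega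
  have e6 : a ≤ B := le_of_mul_le_mul_left (a := b * c) (by rw [hd] at hB1; linarith) (by omega)
  obtain rfl : B = a := by omega
  have e7 : b + c = 2 * B + 4 := by
    have : d * (b + c - (2 * B + 4)) = 0 := by rw [hd] at hB ⊢; linarith
    rcases mul_eq_zero.1 this with e | e <;> omega
  have e8 : b * c = (B + 1) ^ 2 + 1 := by rw [e7] at hE; linarith
  refine ⟨rfl, by omega, e8, ?_⟩
  rw [show (b - c) ^ 2 = (b + c) ^ 2 - 4 * (b * c) by ring, e7, e8]; ring

theorem two_bd {a S d B t : ℤ} (d0 : 200 ≤ d) (e1 : 4 * B = d * (2 * a + 4 - S) + 4 * t) (h1 : t ≤ d + 1)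
    (h2 : -(d + 1) ≤ t) (hB0 : 0 ≤ B) (hB1 : B ≤ 16 * d) : S ≤ 2 * a + 8 ∧ 2 * a - 65 ≤ S := by
  constructor <;> by_contra! e
  · have := mul_le_mul_of_nonneg_left (show 2 * a + 4 - S ≤ -5 by omega) (show 0 ≤ d by omega)
    omega
  · have := mul_le_mul_of_nonneg_left (show 70 ≤ 2 * a + 4 - S by omega) (show 0 ≤ d by omega)
    omega

theorem two_fin {X Y Z L ν : ℤ} (hL : 1 ≤ L) (hν : 1 ≤ ν) (e9 : 2 * (X * ν) ≤ 3 * Y + 8) (e10 : 4 * L * Y ≤ Z)
    (e11 : 116 * Z ≤ 351 * X) (e13 : 1000 ≤ X) : ν = 1 ∧ L = 1 := by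
  have e12 : 928 * L * (X * ν - 4) ≤ 1053 * X := by
    have := mul_le_mul_of_nonneg_left e9 (show 0 ≤ 464 * L by omega)
    linarith
  have t0 : X ≤ X * ν := le_mul_of_one_le_right (by omega) hν
  constructor <;> by_contra e
  · have t1 : X * 2 ≤ X * ν := mul_le_mul_of_nonneg_left (by omega) (by omega)
    have := mul_le_mul_of_nonneg_right hL (show 0 ≤ X * ν - 4 by omega)
    linarith
  · have := mul_le_mul_of_nonneg_right (show 2 ≤ L by omega) (show 0 ≤ X * ν - 4 by omega)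
    linarith

theorem case_two {a b c k δ d B L : ℤ} (ha : 5 ≤ a) (hb : 9 ≤ b) (hc : b + 4 ≤ c) (hδ : δ = 1 ∨ δ = -1) (hk : 1 < k)
    (hd : d = k * (b * c) - δ) (hg : k * d ≤ 3 * a * (b * c)) (hL : 1 ≤ L)
    (hE : 4 * δ + k * (a * (b + c) - 2 * (b * c)) = 4 * a * (b * c) * L)
    (hB : 4 * B = 4 * a * (k * (b * c)) - d * (2 * a + b + c - 4)) (hB0 : 0 ≤ B) (hB1 : B ≤ 16 * d) (had : a ≤ d + 1) :
    L = 1 ∧ k = 4 * b + 1 := by
  have a0 : 0 < a := by omega
  have b0 : 0 < b := by omega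
  have c0 : 0 < c := by omega
  have k0 : 0 < k := by omega
  have hP : 117 ≤ b * c := by have := mul_le_mul hb (show 13 ≤ c by omega) (by omega) b0.le; omega
  have δ1 : δ ≤ 1 ∧ -1 ≤ δ := by omega
  have kP := mul_le_mul (show 2 ≤ k by omega) hP (by omega) k0.le
  obtain ⟨e2, e3⟩ := two_bd (a := a) (S := b + c) (d := d) (t := a * δ) (by omega) (by rw [hB, hd]; ring)
    (by rcases hδ with rfl | rfl <;> omega) (by rcases hδ with rfl | rfl <;> omega) hB0 hB1
  clear hB hB0 hB1 had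
  have e4 : 2 * b < k := by
    by_contra! e
    have t1 : k * (a * (b + c)) ≤ 2 * b * (a * (b + c)) := mul_le_mul_of_nonneg_right e (by positivity)
    have t2 : 4 * a * (b * c) ≤ 4 * a * (b * c) * L := le_mul_of_one_le_right (by positivity) hL
    have := mul_pos (mul_pos a0 b0) (show 0 < c - b by omega)
    linarith
  have e5 : 116 * k ^ 2 ≤ 351 * a := by
    have t1 : k * δ ≤ k ^ 2 := by rw [sq]; exact mul_le_mul_of_nonneg_left (by omega) k0.le
    refine le_of_mul_le_mul_right (a := b * c) ?_ (by omega)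
    have := mul_le_mul_of_nonneg_left hP (sq_nonneg k)
    rw [hd] at hg; linarith
  have e6 : 119 ≤ a := by have := pow_le_pow_left₀ (by omega) (show 19 ≤ k by omega) 2; omega
  obtain ⟨ν, hν⟩ : ∃ ν, ν = k - 4 * b * L := ⟨_, rfl⟩
  have e7 : a * c * ν = k * b * (2 * c - a) - 4 * δ := by rw [hν]; linarith
  have e8 : 1 ≤ ν := by
    by_contra! e
    have t1 : a * c * ν ≤ 0 := mul_nonpos_of_nonneg_of_nonpos (by positivity) (by omega)
    have := mul_le_mul (show 1 ≤ k * b from mul_pos k0 b0) (show 5 ≤ 2 * c - a by omega) (by omega) (by positivity)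
    omega
  have t1 : k * b * (2 * (2 * c - a)) ≤ k * b * (3 * c) := mul_le_mul_of_nonneg_left (by omega) (by positivity)
  have t2 : k * c * (4 * b * L) ≤ k * c * k := mul_le_mul_of_nonneg_left (by omega) (by positivity)
  have t3 := mul_le_mul_of_nonneg_right e5 c0.le
  have t4 := mul_le_mul e6 (show 13 ≤ c by omega) (by omega) a0.le
  obtain ⟨rfl, rfl⟩ := two_fin (X := a * c) (Y := k * b * c) (Z := k ^ 2 * c) hL e8 (by linarith) (by linarith)
    (by linarith) (by omega)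
  exact ⟨rfl, by omega⟩

end Cfsg.Lib.HSz
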