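import Cfsg.Agent.Lib.OddChar.BL
import Cfsg.Agent.Lib.Inv.Count

/-! Strongly self-centralizing subgroups: group theory and counting. -/

set_option autoImplicit false

namespace Cfsg.Lib.HSz
open Subgroup Finset Cfsg.Lib.Char Cfsg.Lib.OddChar Cfsg.Lib.Inv

variable {G : Type*} [Group G] {A : Subgroup G} {a b g x t : G}

/-- `A` is the centralizer of each of its non-identity elements. -/
def SSC (A : Subgroup G) : Prop := ∀ a ∈ A, a ≠ 1 → centralizer ({a} : Set G) = A

/-- `g` is conjugate to a non-identity element of `A`. -/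
def InA (A : Subgroup G) (g : G) : Prop := g ≠ 1 ∧ ∃ x : G, x * g * x⁻¹ ∈ A

/-- The order of the centralizer. -/
noncomputable abbrev cc (g : G) : ℕ := Nat.card (centralizer ({g} : Set G))

/-- The size of the conjugacy class. -/
noncomputable abbrev ci (g : G) : ℕ := (centralizer ({g} : Set G)).index

/-- The number of ways to write `x` as a product of two involutions. -/
noncomputable abbrev pr (x : G) : ℕ := Nat.card {p : G × G // orderOf p.1 = 2 ∧ orderOf p.2 = 2 ∧ p.1 * p.2 = x}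

theorem cc_mul_ci (g : G) : cc g * ci g = Nat.card G := card_mul_index _

theorem conj_ne_one (h : g ≠ 1) (x : G) : x * g * x⁻¹ ≠ 1 := by simpa using h

theorem InA.of_mem (ha : a ∈ A) (h1 : a ≠ 1) : InA A a := ⟨h1, 1, by simpa using ha⟩

theorem InA.conj (h : InA A g) (y : G) : InA A (y * g * y⁻¹) := by
  obtain ⟨h1, x, hx⟩ := h
  exact ⟨conj_ne_one h1 y, x * y⁻¹, by simpa [mul_assoc] using hx⟩

theorem inA_conj_iff (y : G) : InA A (y * g * y⁻¹) ↔ InA A g :=
  ⟨fun h => by simpa [mul_assoc] using h.conj y⁻¹, fun h => h.conj y⟩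

theorem not_inA_one : ¬ InA A 1 := fun h => h.1 rfl

theorem InA.ind {M : Type*} {f : G → M} {c : M} (hf : ∀ g x, f (x * g * x⁻¹) = f g) (hc : ∀ a ∈ A, a ≠ 1 → f a = c)
    (h : InA A g) : f g = c := by
  obtain ⟨h1, x, hx⟩ := h
  rw [← hf g x, hc _ hx (conj_ne_one h1 x)]

theorem cc_conj [Finite G] (g x : G) : cc (x * g * x⁻¹) = cc g :=
  (Inv.card_centralizer_eq_of_isConj (isConj_iff.2 ⟨x, rfl⟩)).symm

theorem pr_conj (g x : G) : pr (x * g * x⁻¹) = pr g :=
  Nat.card_congr (Equiv.subtypeEquiv ((MulAut.conj x).symm.toEquiv.prodCongr (MulAut.conj x).symm.toEquiv) fun p => by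
    simp only [Equiv.prodCongr_apply, Prod.map, MulEquiv.toEquiv_eq_coe, EquivLike.coe_coe, MulAut.conj_symm_apply,
      orderOf_conj'']
    refine and_congr_right fun _ => and_congr_right fun _ => ⟨fun e => ?_, fun e => ?_⟩
    · rw [show x⁻¹ * p.1 * x * (x⁻¹ * p.2 * x) = x⁻¹ * (p.1 * p.2) * x by group, e]; group
    · rw [← e]; group)

theorem sum_class [Fintype G] [Fintype (ConjClasses G)] {M : Type*} [AddCommMonoid M] {f : G → M}
    (hf : ∀ g x, f (x * g * x⁻¹) = f g) : ∑ g, f g = ∑ C : ConjClasses G, ci C.out • f C.out := by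
  classical
  rw [← sum_fiberwise (s := univ) (g := ConjClasses.mk)]
  refine sum_congr rfl fun C _ => ?_
  have e : ∀ g, ConjClasses.mk g = C ↔ IsConj C.out g := fun g => by
    rw [← ConjClasses.mk_eq_mk_iff_isConj, eq_comm]; exact iff_of_eq (by congr 1; exact (Quotient.out_eq C).symm)
  rw [ci, ← card_filter_isConj, ← sum_const, filter_congr fun g _ => e g]
  refine sum_congr rfl fun g hg => ?_
  obtain ⟨x, rfl⟩ := isConj_iff.1 (mem_filter.1 hg).2
  exact hf _ x

theorem dvd_sum_class [Fintype G] {f : G → ℤ} (hf : ∀ g x, f (x * g * x⁻¹) = f g) {n : ℕ}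
    (h : ∀ g, f g ≠ 0 → n ∣ ci g) : (n : ℤ) ∣ ∑ g, f g := by
  have := Fintype.ofFinite (ConjClasses G)
  rw [sum_class hf]
  refine dvd_sum fun C _ => ?_
  rw [nsmul_eq_mul]
  by_cases e : f C.out = 0
  · simp [e]
  · exact (Int.natCast_dvd_natCast.2 (h _ e)).mul_right _

open Classical in
theorem ci_mul_le_sum [Fintype G] {f : G → ℤ} (hf : ∀ g x, f (x * g * x⁻¹) = f g) (h0 : ∀ g, 0 ≤ f g) (g : G) :
    ci g * f g ≤ ∑ y, f y := by
  rw [ci, ← card_filter_isConj, ← nsmul_eq_mul, ← sum_const]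
  refine (sum_congr rfl fun y hy => ?_).trans_le (sum_le_univ_sum_of_nonneg h0)
  obtain ⟨x, rfl⟩ := isConj_iff.1 (mem_filter.1 hy).2
  exact (hf _ x).symm

namespace SSC
variable (h : SSC A)
include h

theorem mem_iff (ha : a ∈ A) (h1 : a ≠ 1) : g * a = a * g ↔ g ∈ A := by
  rw [← mem_centralizer_singleton_iff, h a ha h1]

theorem comm (ha : a ∈ A) (hb : b ∈ A) : a * b = b * a := by
  by_cases e : b = 1
  · simp [e]
  · exact (h.mem_iff hb e).2 ha

theorem ti (ha : a ∈ A) (h1 : a ≠ 1) (hx : x * a * x⁻¹ ∈ A) : x ∈ normalizer (A : Set G) := by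
  refine mem_normalizer_iff.2 fun b => ?_
  rw [← h.mem_iff ha h1, ← h.mem_iff hx (conj_ne_one h1 x)]
  exact ⟨fun e => by rw [show x * b * x⁻¹ * (x * a * x⁻¹) = x * (b * a) * x⁻¹ by group, e]; group,
    fun e => by rw [show b * a = x⁻¹ * (x * b * x⁻¹ * (x * a * x⁻¹)) * x by group, e]; group⟩

theorem unif : Unif A A (normalizer (A : Set G)) (MonoidHom.id A) where
  PC := le_rfl
  CN := le_normalizer
  cen _ hy _ hc := h.comm hc hy
  nP _ hx _ hy := (mem_normalizer_iff.1 hx _).1 hy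
  nC _ hx _ hy := (mem_normalizer_iff.1 hx _).1 hy
  fpf _ _ _ hy h1 e := (h.mem_iff hy h1).1 e
  surj z := ⟨z, rfl⟩
  ti a ha _ hx := h.ti a.2 (fun e => ha (Subtype.ext e)) hx

theorem of_comm (ha : InA A a) (h1 : g ≠ 1) (e : g * a = a * g) : InA A g := by
  obtain ⟨h2, x, hx⟩ := ha
  refine ⟨h1, x, (h.mem_iff hx (conj_ne_one h2 x)).1 ?_⟩
  rw [show x * g * x⁻¹ * (x * a * x⁻¹) = x * (g * a) * x⁻¹ by group, e]; group

variable [Finite G]

theorem cc_eq (ha : InA A a) : cc a = Nat.card A := ha.ind cc_conj fun a ha h1 => by rw [cc, h a ha h1]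

theorem sylow_le {p : ℕ} [hp : Fact p.Prime] (hd : p ∣ Nat.card A) : ∃ P : Sylow p G, (P : Subgroup G) ≤ A := by
  obtain ⟨a, ha⟩ := exists_prime_orderOf_dvd_card' p hd
  have h1 : (a : G) ≠ 1 := fun e => hp.out.ne_one (by rw [← ha, ← orderOf_coe, e, orderOf_one])
  have hz : IsPGroup p (zpowers (a : G)) :=
    isPGroup_zpowers (k := 1) (by rw [pow_one, ← ha, ← orderOf_coe]; exact pow_orderOf_eq_one _)
  obtain ⟨P, hP⟩ := hz.exists_le_sylow
  have : Nontrivial P := ⟨⟨⟨a, hP (mem_zpowers _)⟩, 1, fun e => h1 (congrArg Subtype.val e)⟩⟩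
  have := P.isPGroup'.center_nontrivial
  obtain ⟨z, hz1⟩ := exists_ne (1 : center P)
  have hz2 : ((z : P) : G) ≠ 1 := fun e => hz1 (Subtype.ext (Subtype.ext e))
  have hc : ∀ y ∈ (P : Subgroup G), y * z = z * y := fun y hy => congrArg Subtype.val (mem_center_iff.1 z.2 ⟨y, hy⟩)
  exact ⟨P, fun y hy => (h.mem_iff ((h.mem_iff a.2 h1).1 (hc _ (hP (mem_zpowers _))).symm) hz2).1 (hc y hy)⟩

theorem coprime : (Nat.card A).Coprime A.index :=
  Nat.coprime_of_dvd fun p hp h1 h2 => by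
    have := Fact.mk hp
    obtain ⟨P, hP⟩ := h.sylow_le h1
    exact P.not_dvd_index (h2.trans (index_dvd_of_le hP))

theorem of_prime {p : ℕ} (hp : p.Prime) (hd : p ∣ Nat.card A) (hg : orderOf g = p) : InA A g := by
  have := Fact.mk hp
  obtain ⟨P, hP⟩ := h.sylow_le hd
  obtain ⟨x, hx⟩ := exists_conj_elt_mem_sylow P (x := g) (k := 1) (by rw [pow_one, ← hg]; exact pow_orderOf_eq_one _)
  exact ⟨fun e => hp.ne_one (by rw [← hg, e, orderOf_one]), x, hP hx⟩

theorem cop_cc (h1 : g ≠ 1) (hg : ¬ InA A g) : (Nat.card A).Coprime (cc g) :=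
  Nat.coprime_of_dvd fun p hp h2 h3 => by
    have := Fact.mk hp
    obtain ⟨a, ha⟩ := exists_prime_orderOf_dvd_card' p h3
    exact hg (h.of_comm (h.of_prime hp h2 ((orderOf_coe a).trans ha)) h1 (mem_centralizer_singleton_iff.1 a.2).symm)

theorem dvd_ci (h1 : g ≠ 1) (hg : ¬ InA A g) : Nat.card A ∣ ci g :=
  (h.cop_cc h1 hg).dvd_of_dvd_mul_left (cc_mul_ci g ▸ A.card_subgroup_dvd_card)

theorem orderOf_dvd (hg : InA A g) : orderOf g ∣ Nat.card A := by
  obtain ⟨-, x, hx⟩ := hg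
  rw [← orderOf_conj' x]; exact orderOf_dvd_natCard _ hx

theorem cop_card {B : Subgroup G} (hB : SSC B) (hn : ∀ g : G, A.map (MulAut.conj g).toMonoidHom ≠ B) :
    (Nat.card A).Coprime (Nat.card B) :=
  Nat.coprime_of_dvd fun p hp h2 h3 => by
    have := Fact.mk hp
    obtain ⟨a, ha⟩ := exists_prime_orderOf_dvd_card' p h2
    obtain ⟨h1, x, hx⟩ := hB.of_prime hp h3 ((orderOf_coe a).trans ha)
    refine hn x (Subgroup.ext fun y => ?_)
    rw [← hB.mem_iff hx (conj_ne_one h1 x), Subgroup.mem_map_equiv, ← h.mem_iff a.2 h1, MulAut.conj_symm_apply]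
    exact ⟨fun e => by rw [show y * (x * a * x⁻¹) = x * (x⁻¹ * y * x * a) * x⁻¹ by group, e]; group,
      fun e => by rw [show x⁻¹ * y * x * a = x⁻¹ * (y * (x * a * x⁻¹)) * x by group, e]; group⟩

open Classical in
theorem card_inA [Fintype G] : #(univ.filter (InA A)) * Nat.card (normalizer (A : Set G)) + Nat.card G =
    Nat.card G * Nat.card A := by
  have := card_mul_eq_card_mul (s := univ.filter (InA A)) (t := univ) (fun g x : G => x * g * x⁻¹ ∈ A)
    (m := Nat.card (normalizer (A : Set G))) (n := Nat.card A - 1) (fun g hg => ?_) fun x _ => ?_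
  · rw [this, card_univ, ← Nat.card_eq_fintype_card, ← Nat.mul_succ, Nat.succ_eq_add_one,
      Nat.sub_add_cancel Nat.card_pos]
  · obtain ⟨h1, y, hy⟩ := (mem_filter.1 hg).2
    rw [Nat.card_eq_fintype_card, Fintype.card_subtype]
    refine card_bijective (· * y⁻¹) (Equiv.mulRight y⁻¹).bijective fun x => ?_
    simp only [bipartiteAbove, mem_filter, mem_univ, true_and]
    exact ⟨fun e => h.ti hy (conj_ne_one h1 y) (by simpa [mul_assoc] using e),
      fun e => by simpa [mul_assoc] using (mem_normalizer_iff.1 e _).1 hy⟩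
  · rw [Nat.card_eq_fintype_card, Fintype.card_subtype, ← card_erase_of_mem (a := 1) (by simp)]
    refine card_bijective (MulAut.conj x) (MulAut.conj x).bijective fun g => ?_
    simp only [bipartiteBelow, mem_filter, mem_univ, true_and, mem_erase, MulAut.conj_apply]
    exact ⟨fun e => ⟨conj_ne_one e.1.1 x, e.2⟩, fun e => ⟨⟨fun e1 => e.1 (by simp [e1]), x, e.2⟩, e.2⟩⟩

variable (he : Even (A.relIndex (normalizer (A : Set G))))
include he

theorem odd : Odd (Nat.card A) := by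
  refine Nat.not_even_iff_odd.1 fun e => ?_
  exact absurd (Nat.dvd_gcd e.two_dvd (he.two_dvd.trans (relIndex_dvd_index_of_le le_normalizer)))
    (by rw [h.coprime]; decide)

theorem not_inA (ht : orderOf t = 2) : ¬ InA A t := fun e =>
  Nat.not_even_iff_odd.2 (h.odd he) (even_iff_two_dvd.2 (ht ▸ h.orderOf_dvd e))

theorem inverts (ht : orderOf t = 2) (hN : t ∈ normalizer (A : Set G)) (ha : a ∈ A) : t * a * t⁻¹ = a⁻¹ := by
  have h1 := (mem_normalizer_iff.1 hN a).1 ha
  by_contra e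
  refine h.not_inA he ht (.of_mem ((h.mem_iff (A.mul_mem ha h1) fun e1 => e (eq_inv_of_mul_eq_one_right e1)).1 ?_)
    (ne_one_of_orderOf ht))
  rw [show t * (a * (t * a * t⁻¹)) = t * a * t⁻¹ * (t * t * a * t⁻¹) by group, mul_self_of_orderOf ht, one_mul,
    ← mul_assoc, ← h.comm ha h1, inv_eq_of_orderOf ht]

theorem exists_inv : ∃ t ∈ normalizer (A : Set G), orderOf t = 2 :=
  exists_involution_mem_of_even (even_iff_two_dvd.2 (he.two_dvd.trans (relIndex_dvd_card _ _)))

theorem inv_mul (ht : orderOf t = 2) (hN : t ∈ normalizer (A : Set G)) (ha : a ∈ A) : orderOf (t * a) = 2 :=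
  orderOf_eq_two_iff.2 ⟨fun e => h.not_inA he ht (.of_mem (by rw [eq_inv_of_mul_eq_one_left e]; exact A.inv_mem ha)
    (ne_one_of_orderOf ht)), by
      rw [show t * a * (t * a) = t * a * t⁻¹ * a by rw [inv_eq_of_orderOf ht]; group, h.inverts he ht hN ha]; simp⟩

theorem pr_eq (hg : InA A g) : pr g = Nat.card A := by
  refine hg.ind pr_conj fun a ha h1 => ?_
  obtain ⟨t, hN, ht⟩ := h.exists_inv he
  rw [pr, card_pairs_eq]
  refine Nat.card_congr ((Equiv.mulLeft t).subtypeEquiv fun u => ⟨fun e => (h.mem_iff ha h1).1 ?_, fun e => ?_⟩)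
  · rw [Equiv.coe_mulLeft, show t * u * a = t * (u * a * u⁻¹) * t⁻¹ * (t * u) by group, e.1.2,
      h.inverts he ht hN (A.inv_mem ha), inv_inv]
  · have e1 := h.inv_mul he ht hN e
    rw [Equiv.coe_mulLeft] at e
    rw [Equiv.coe_mulLeft, ← mul_assoc, mul_self_of_orderOf ht, one_mul] at e1
    exact ⟨⟨e1, h.inverts he e1 ((Subgroup.mul_mem_cancel_left _ hN).1 (le_normalizer e)) ha⟩,
      fun e2 => h.not_inA he e1 (e2 ▸ .of_mem ha h1)⟩

end SSC

end Cfsg.Lib.HSz
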