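import Cfsg.Agent.Lib.HSz.Basic
import Cfsg.Agent.Lib.Char.Burnside

/-! Exceptional characters for a strongly self-centralizing subgroup. -/

set_option autoImplicit false

namespace Cfsg.Lib.HSz
open Subgroup Finset Cfsg.Lib.Char Cfsg.Lib.Induce Cfsg.Lib.OddChar Cfsg.Lib.OddChar.Unif Cfsg.Lib.Inv
open scoped ComplexConjugate

variable {G : Type*} [Group G] [Fintype G] {A : Subgroup G} {g : G}

/-- `φ` takes the value `c` on the non-identity elements of `A`. -/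
def Cst (A : Subgroup G) (φ : G → ℂ) (c : ℂ) : Prop := ∀ a ∈ A, a ≠ 1 → φ a = c

open Classical in
theorem mlt_sub_irr (ξ ξ' ψ : IrrCharacter G) :
    mlt ((ξ : G → ℂ) - (ξ' : G → ℂ)) ψ = (if ξ = ψ then 1 else 0) - if ξ' = ψ then 1 else 0 :=
  mlt_eq_of_inner (by rw [classInner_sub_left, irr_inner_eq_ite, irr_inner_eq_ite]; push_cast; rfl)

theorem inner_irr_one {H : Type*} [Group H] [Fintype H] {η : IrrCharacter H} (h : η ≠ irrOne H) :
    classInner (η : H → ℂ) (fun _ => 1) = 0 :=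
  η.2.inner_eq_zero_of_ne isIrrCharacter_one fun e => h (Subtype.ext e)

namespace SSC
variable (h : SSC A) [Fintype A] {η η' η₁ η₂ : IrrCharacter A} {φ φ' : G → ℂ} {c : ℂ} {ψ ψ' : IrrCharacter G}
include h

omit [Fintype G] [Fintype A] in
theorem fam (η η' : IrrCharacter A) : Fam (MonoidHom.id A) η η' := fun c hc => by
  have : IsMulCommutative A := ⟨⟨fun a b => Subtype.ext (h.comm a.2 b.2)⟩⟩
  rw [show c = 1 from hc, η.2.apply_one_of_comm, η'.2.apply_one_of_comm]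

omit [Fintype G] in
theorem nt_iff : h.unif.NT η ↔ η ≠ irrOne A :=
  ⟨fun ⟨_, hy⟩ e => hy (by rw [e]; rfl), fun e => by_contra fun e1 =>
    e (Subtype.ext (η.2.eq_one_of_forall_apply_eq fun y => by_contra fun e2 => e1 ⟨y, e2⟩))⟩

omit [Fintype G] in
theorem not_cj (hη : η ≠ irrOne A) : ¬ h.unif.Cj (irrOne A) η := fun H => h.nt_iff.1 ((h.nt_iff.2 hη).cj H) rfl

omit [Fintype A] in
theorem df_zero (hg : ¬ InA A g) : df η η' g = 0 :=
  indFun_eq_zero_of_forall' _ _ _ fun x hx => by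
    have e : g = 1 := by_contra fun e => hg ⟨e, x, hx⟩
    rw [Pi.sub_apply, h.fam η η' _ (Subtype.ext (by simp [e])), sub_self]

theorem inner_congr (h1 : IsClassFunction G φ) (h2 : IsClassFunction G φ') (e : ∀ a ∈ A, a ≠ 1 → φ a = φ' a) :
    classInner (df η η') φ = classInner (df η η') φ' := by
  rw [df, frobenius_reciprocity _ _ h1, frobenius_reciprocity _ _ h2, classInner_def, classInner_def]
  congr 1
  refine sum_congr rfl fun a _ => ?_
  by_cases ha : a = 1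
  · rw [Pi.sub_apply, h.fam η η' a ha, sub_self, zero_mul, zero_mul]
  · rw [e a a.2 fun e => ha (Subtype.ext e)]

theorem inner_cst (h1 : IsClassFunction G φ) (hc : Cst A φ c) : classInner (df η η') φ =
    conj c * (classInner (η : A → ℂ) (fun _ => 1) - classInner (η' : A → ℂ) fun _ => 1) := by
  rw [h.inner_congr h1 (φ' := c • fun _ => 1) (fun _ _ => rfl) fun a ha h1 => by simpa using hc a ha h1,
    classInner_smul_right, df, classInner_indFun_one, classInner_sub_left]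

theorem mlt_cst {v : ℤ} (hc : Cst A ψ v) (hη : η ≠ irrOne A) : mlt (df (irrOne A) η) ψ = v :=
  mlt_eq_of_inner (by
    rw [h.inner_cst ψ.2.isClassFunction hc, inner_irr_one hη, sub_zero, map_intCast]
    exact (congrArg _ (irrOne A).2.inner_self).trans (mul_one _))

theorem mlt_cst' (hc : Cst A ψ c) (hη : η ≠ irrOne A) (hη' : η' ≠ irrOne A) : mlt (df η η') ψ = 0 :=
  mlt_eq_of_inner (by rw [h.inner_cst ψ.2.isClassFunction hc, inner_irr_one hη, inner_irr_one hη']; simp)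

omit [Fintype G] in
theorem cst_one : Cst A (irrOne G : G → ℂ) (1 : ℤ) := fun _ _ _ => by simp

theorem cst_of (hc : ∀ η, η ≠ irrOne A → mlt (df (irrOne A) η) ψ = mlt (df (irrOne A) η₁) ψ) :
    Cst A ψ (mlt (df (irrOne A) η₁) ψ) := fun a ha h1 => by
  classical
  have : IsMulCommutative A := ⟨⟨fun a b => Subtype.ext (h.comm a.2 b.2)⟩⟩
  have e := apply_eq_sum_mlt (ψ.2.isCharacter.restrict A).isGeneralizedCharacter ⟨a, ha⟩
  have e1 := sum_irr_apply_one_mul_apply_of_ne_one (g := (⟨a, ha⟩ : A)) fun e => h1 (congrArg Subtype.val e)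
  simp only [fun η : IrrCharacter A => η.2.apply_one_of_comm, one_mul] at e1
  set m := mlt (fun x : A => (ψ : G → ℂ) x)
  set v := mlt (df (irrOne A) η₁) ψ
  have e2 : ∀ η : IrrCharacter A, (m η : ℂ) * (η : A → ℂ) ⟨a, ha⟩ =
      (m (irrOne A) - v) * (η : A → ℂ) ⟨a, ha⟩ + if η = irrOne A then (v : ℂ) else 0 := fun η => by
    split_ifs with e3
    · rw [e3, irrOne_apply]; ring
    · rw [← hc η e3, mlt_df]; push_cast; ring
  simp only [e2, sum_add_distrib, ← mul_sum, e1, sum_ite_eq', mem_univ, if_true] at e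
  simpa using e

variable [Fintype (normalizer (A : Set G))]

theorem tau (h1 : η ≠ irrOne A) (h2 : η' ≠ irrOne A) (h3 : ¬ h.unif.Cj η η') :
    ∃ ξ ξ' : IrrCharacter G, ξ' ≠ ξ ∧ df η η' = (ξ : G → ℂ) - (ξ' : G → ℂ) :=
  exists_eq_sub_of_norm_two (df_gen η η') (h.unif.norm_df (h.fam η η') (h.nt_iff.2 h1) (h.nt_iff.2 h2) h3)
    (df_one (h.fam η η'))

theorem inner_om (h1 : η ≠ irrOne A) (h2 : η' ≠ irrOne A) : classInner (df (irrOne A) η) (df (irrOne A) η') =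
    A.relIndex (normalizer (A : Set G)) + h.unif.b η η' := by
  rw [h.unif.inner_df (h.fam _ _), h.unif.b_one, h.unif.b_of_not (h.not_cj h2),
    h.unif.b_of_not fun H => h.not_cj h1 H.symm, sub_zero, sub_zero]; rfl

theorem norm_om (h1 : η ≠ irrOne A) : classInner (df (irrOne A) η) (df (irrOne A) η) =
    ((A.relIndex (normalizer (A : Set G)) + 1 : ℕ) : ℤ) := by
  rw [h.inner_om h1 h1, h.unif.b_self (h.nt_iff.2 h1)]; push_cast; rfl

theorem mlt_om_sub (h1 : η ≠ irrOne A) (h2 : η' ≠ irrOne A) (h3 : ¬ h.unif.Cj η η') {ξ ξ' : IrrCharacter G}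
    (e : df η η' = (ξ : G → ℂ) - (ξ' : G → ℂ)) : mlt (df (irrOne A) η') ξ - mlt (df (irrOne A) η') ξ' = 1 := by
  have := h.unif.inner_df (h.fam (irrOne A) η') η η'
  rw [h.unif.b_of_not (h.not_cj h1), h.unif.b_of_not (h.not_cj h2), h.unif.b_of_not fun H => h3 H.symm,
    h.unif.b_self (h.nt_iff.2 h2), e, classInner_sub_right, ← mlt_cast (df_gen _ _), ← mlt_cast (df_gen _ _)] at this
  exact_mod_cast this

omit [Fintype (normalizer (A : Set G))] in
theorem mlt_df_cj (H : h.unif.Cj η η') (η₁ : IrrCharacter A) : mlt (df η₁ η) ψ = mlt (df η₁ η') ψ := by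
  rw [mlt_df, mlt_df, h.unif.mlt_cj ψ.2.isClassFunction H]

omit [Fintype (normalizer (A : Set G))] in
theorem cst_of' (hc : ∀ η, η ≠ irrOne A → ¬ h.unif.Cj η η₁ → mlt (df η η₁) ψ = 0) :
    Cst A ψ (mlt (df (irrOne A) η₁) ψ) :=
  h.cst_of fun η hη => by
    by_cases H : h.unif.Cj η η₁
    · exact h.mlt_df_cj H _
    · have := hc η hη H
      rw [mlt_df] at this
      rw [mlt_df, mlt_df]; omega

theorem cst_of_agree (h1 : η₁ ≠ irrOne A) (hne : ψ ≠ ψ') (e : ∀ a ∈ A, a ≠ 1 → (ψ : G → ℂ) a = (ψ' : G → ℂ) a) :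
    Cst A ψ (mlt (df (irrOne A) η₁) ψ) :=
  h.cst_of' fun η hη H => by
    obtain ⟨ξ, ξ', h2, h3⟩ := h.tau hη h1 H
    have : mlt (df η η₁) ψ = mlt (df η η₁) ψ' := by
      rw [mlt, mlt, h.inner_congr ψ.2.isClassFunction ψ'.2.isClassFunction e]
    rw [h3, mlt_sub_irr] at this ⊢
    rw [mlt_sub_irr] at this
    split_ifs at this ⊢ <;> simp_all

omit [Fintype (normalizer (A : Set G))] in
open Classical in
theorem card_nt (T : Finset (IrrCharacter A)) (hT : ∀ η, η ≠ irrOne A → ∃ η' ∈ T, η' ≠ irrOne A ∧ h.unif.Cj η η') :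
    Nat.card A ≤ #T * A.relIndex (normalizer (A : Set G)) + 1 := by
  refine (h.unif.card_fam (irrOne A)).trans (Nat.succ_le_succ ((card_le_card (t := (T.filter (· ≠ irrOne A)).biUnion
    fun η' => univ.filter fun η => h.unif.Cj η η') fun η hη => ?_).trans ((card_biUnion_le_card_mul _ _ _
      fun η hη => (h.unif.card_cj (h.nt_iff.2 (mem_filter.1 hη).2)).le).trans (Nat.mul_le_mul_right _ (card_filter_le _ _)))))
  obtain ⟨η', h1, h2, h3⟩ := hT η (h.nt_iff.1 (mem_filter.1 hη).2.2)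
  exact mem_biUnion.2 ⟨η', mem_filter.2 ⟨h1, h2⟩, mem_filter.2 ⟨mem_univ _, h3⟩⟩

omit [Fintype (normalizer (A : Set G))] in
theorem exists_two (hn : A.relIndex (normalizer (A : Set G)) + 1 < Nat.card A) :
    ∃ η₁ η₂ : IrrCharacter A, η₁ ≠ irrOne A ∧ η₂ ≠ irrOne A ∧ ¬ h.unif.Cj η₂ η₁ := by
  by_contra! H
  by_cases e : ∃ η₁ : IrrCharacter A, η₁ ≠ irrOne A
  · obtain ⟨η₁, e⟩ := e
    have := h.card_nt {η₁} fun η hη => ⟨η₁, mem_singleton_self _, e, H _ _ e hη⟩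
    rw [card_singleton] at this; omega
  · have := h.card_nt ∅ fun η hη => absurd ⟨η, hη⟩ e
    rw [card_empty] at this; omega

end SSC

namespace SSC
variable (h : SSC A) (hn : A.relIndex (normalizer (A : Set G)) + 1 < Nat.card A)
include h hn

theorem bound (T : Finset (IrrCharacter G)) (v : IrrCharacter G → ℤ) (hv : ∀ ψ ∈ T, Cst A ψ (v ψ)) :
    ∑ ψ ∈ T, v ψ ^ 2 ≤ A.relIndex (normalizer (A : Set G)) := by
  classical
  obtain ⟨η₁, η₂, h1, h2, h3⟩ := h.exists_two hn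
  obtain ⟨ξ, ξ', h4, h5⟩ := h.tau h2 h1 h3
  have h6 := h.mlt_om_sub h2 h1 h3 h5
  have h7 := sum_mlt_sq_eq (df_gen _ _) (h.norm_om h1)
  have key : ∀ ζ, mlt (df η₂ η₁) ζ ≠ 0 → mlt (df (irrOne A) η₁) ζ ≠ 0 →
      ∑ ψ ∈ T, v ψ ^ 2 ≤ A.relIndex (normalizer (A : Set G)) := fun ζ e1 e2 => by
    have h8 := sum_sq_le_sum_sq (c := mlt (df (irrOne A) η₁)) (insert ζ T)
    rw [sum_insert fun e => e1 (h.mlt_cst' (hv ζ e) h2 h1), h7, sum_congr rfl fun ψ hψ => by
      rw [h.mlt_cst (hv ψ hψ) h1]] at h8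
    have := pow_pos (abs_pos.2 e2) 2
    rw [sq_abs] at this
    push_cast at h8; omega
  by_cases e : mlt (df (irrOne A) η₁) ξ = 0
  · exact key ξ' (by rw [h5, mlt_sub_irr]; simp [h4.symm]) (by omega)
  · exact key ξ (by rw [h5, mlt_sub_irr]; simp [h4]) e

theorem exists_cst {ψ ψ' : IrrCharacter G} (hne : ψ ≠ ψ')
    (e : ∀ a ∈ A, a ≠ 1 → (ψ : G → ℂ) a = (ψ' : G → ℂ) a) : ∃ v : ℤ, Cst A ψ v := by
  classical
  obtain ⟨η₁, -, h1, -⟩ := h.exists_two hn
  exact ⟨_, h.cst_of_agree h1 hne e⟩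

theorem cover : ∃ S : Finset (IrrCharacter G), #S ≤ A.relIndex (normalizer (A : Set G)) + 1 ∧
    ∀ ψ : IrrCharacter G, Cst A ψ 0 ∨ ∃ ξ ∈ S, ∀ g, ¬ InA A g → (ψ : G → ℂ) g = (ξ : G → ℂ) g := by
  classical
  obtain ⟨η₁, -, h1, -⟩ := h.exists_two hn
  refine ⟨univ.filter (mlt (df (irrOne A) η₁) · ≠ 0), ?_, fun ψ => ?_⟩
  · have := card_le_sum_sq (c := mlt (df (irrOne A) η₁)) (univ.filter (mlt (df (irrOne A) η₁) · ≠ 0))
      fun _ e => (mem_filter.1 e).2
    rw [sum_mlt_sq_eq (df_gen _ _) (h.norm_om h1)] at this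
    exact_mod_cast this
  by_cases e : mlt (df (irrOne A) η₁) ψ = 0
  swap
  · exact .inr ⟨ψ, by simpa using e, fun _ _ => rfl⟩
  by_cases e1 : ∀ η, η ≠ irrOne A → ¬ h.unif.Cj η η₁ → mlt (df η η₁) ψ = 0
  · exact .inl (by simpa [e] using h.cst_of' e1)
  push Not at e1
  obtain ⟨η, h2, h3, e1⟩ := e1
  obtain ⟨ξ, ξ', h4, h5⟩ := h.tau h2 h1 h3
  have h6 := h.mlt_om_sub h2 h1 h3 h5
  have h7 : ∀ g, ¬ InA A g → (ξ : G → ℂ) g = (ξ' : G → ℂ) g := fun g hg => by
    rw [← sub_eq_zero, ← Pi.sub_apply, ← h5, h.df_zero hg]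
  rw [h5, mlt_sub_irr] at e1
  by_cases e2 : ξ = ψ
  · exact .inr ⟨ξ', by simp; rw [e2] at h6; omega, e2 ▸ h7⟩
  · have e3 : ξ' = ψ := by_contra fun e3 => e1 (by simp [e2, e3])
    exact .inr ⟨ξ, by simp; rw [e3] at h6; omega, fun g hg => e3 ▸ (h7 g hg).symm⟩

end SSC

theorem common {α β : Type*} {R : α → α → Prop} {u v : α → β} (hx : ∀ i j, ¬ R i j → u i = u j ∨ v i = v j)
    (hc : ∀ i j, R i j → u i = u j) {i j : α} (e : u i = u j) (e' : v i ≠ v j) (k : α) : u k = u i := by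
  by_cases h1 : R k i
  · exact hc _ _ h1
  by_cases h2 : R k j
  · exact (hc _ _ h2).trans e.symm
  rcases hx _ _ h1 with h3 | h3
  · exact h3
  · exact ((hx _ _ h2).resolve_right fun h4 => e' (h3.symm.trans h4)).trans e.symm

namespace SSC
variable (h : SSC A) (he : A.relIndex (normalizer (A : Set G)) = 2)
include h he

theorem shape [Fintype A] [Fintype (normalizer (A : Set G))] {η : IrrCharacter A} (h1 : η ≠ irrOne A) :
    ∃ a b : IrrCharacter G, a ≠ irrOne G ∧ b ≠ irrOne G ∧ a ≠ b ∧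
      df (irrOne A) η = (irrOne G : G → ℂ) + (a : G → ℂ) - (b : G → ℂ) := by
  obtain ⟨X, Y, ε, e1, e2, e3, e4, -, -, -, -, e5⟩ := exists_eq_of_norm_three (df_gen (irrOne A) η)
    (by rw [h.norm_om h1, he]; norm_num) (df_one (h.fam _ _))
    (by rw [← coe_irrOne, ← mlt_cast (df_gen _ _), h.mlt_cst h.cst_one h1]; simp)
  have e6 := fun g => (apply_eq_sum_mlt (df_gen (irrOne A) η) g).trans (e5 fun ξ => (ξ : G → ℂ) g)
  rcases e4 with rfl | rfl
  · exact ⟨Y, X, e2, e1, e3, funext fun g => by rw [e6]; simp; ring⟩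
  · have := e6 1
    rw [df_one (h.fam _ _), X.2.apply_one_eq, Y.2.apply_one_eq, irrOne_apply] at this
    have e7 : (0 : ℤ) = 1 - charDegree (X : G → ℂ) + -1 * charDegree (Y : G → ℂ) := by exact_mod_cast this
    have := degree_pos_int X
    have := degree_pos_int Y
    omega

theorem two (hn : 3 < Nat.card A) : ∃ (χ : IrrCharacter G) (δ : ℤ) (Θ : Finset (IrrCharacter G)),
    (δ = 1 ∨ δ = -1) ∧ χ ≠ irrOne G ∧ Cst A χ δ ∧ Nat.card A ≤ #Θ * 2 + 1 ∧
      ∀ θ ∈ Θ, θ ≠ irrOne G ∧ ∀ g, ¬ InA A g → (θ : G → ℂ) g = (χ : G → ℂ) g + δ := by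
  classical
  obtain ⟨η₁, η₂, h1, h2, h3⟩ := h.exists_two (by omega)
  choose a b ha hb hab hd using fun η : {η // η ≠ irrOne A} => h.shape he η.2
  have hm : ∀ η ψ, mlt (df (irrOne A) η.1) ψ =
      (if irrOne G = ψ then 1 else 0) + (if a η = ψ then 1 else 0) - if b η = ψ then 1 else 0 := fun η ψ =>
    mlt_eq_of_inner (by
      rw [hd, classInner_sub_left, classInner_add_left, irr_inner_eq_ite, irr_inner_eq_ite, irr_inner_eq_ite]
      push_cast; rfl)
  have hx : ∀ η η', ¬ h.unif.Cj η.1 η'.1 → (a η = a η' ∨ b η = b η') ∧ ¬ (a η = a η' ∧ b η = b η') := fun η η' H => by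
    have := h.inner_om η.2 η'.2
    rw [h.unif.b_of_not H, hd η', classInner_sub_right, classInner_add_right, ← mlt_cast (df_gen _ _),
      ← mlt_cast (df_gen _ _), ← mlt_cast (df_gen _ _), he] at this
    norm_cast at this
    rw [hm, hm, hm, if_pos rfl, if_neg (ha η), if_neg (hb η), if_neg (ha η').symm, if_neg (hb η').symm] at this
    refine ⟨by_contra fun e => ?_, fun ⟨e1, e2⟩ => ?_⟩
    · rw [if_neg (not_or.1 e).1, if_neg (not_or.1 e).2] at this
      split_ifs at this <;> omega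
    · rw [if_pos e1, if_pos e2, if_neg fun e => hab η' (e1.symm.trans e),
        if_neg fun e => hab η' (e.symm.trans e2)] at this
      omega
  have hc : ∀ η η', h.unif.Cj η.1 η'.1 → a η = a η' ∧ b η = b η' := fun η η' H => by
    have e1 := h.mlt_df_cj (ψ := a η') H (irrOne A)
    have e2 := h.mlt_df_cj (ψ := b η') H (irrOne A)
    rw [hm, hm, if_pos rfl] at e1 e2
    rw [if_neg (hab η').symm, if_neg (ha η').symm] at e1
    rw [if_neg (hab η'), if_neg (hb η').symm] at e2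
    exact ⟨by_contra fun e => by rw [if_neg e] at e1; split_ifs at e1 <;> omega,
      by_contra fun e => by rw [if_neg e] at e2; split_ifs at e2 <;> omega⟩
  have key : ∀ (χ : IrrCharacter G) (δ : ℤ) (θ : {η // η ≠ irrOne A} → IrrCharacter G),
      (∀ η : {η // η ≠ irrOne A}, mlt (df (irrOne A) η.1) χ = δ) →
      (∀ η η', θ η = θ η' → h.unif.Cj η.1 η'.1) → (∀ η, θ η ≠ irrOne G) →
      (∀ η g, ¬ InA A g → (θ η : G → ℂ) g = (χ : G → ℂ) g + δ) → ∃ Θ : Finset (IrrCharacter G),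
      Cst A χ δ ∧ Nat.card A ≤ #Θ * 2 + 1 ∧
      ∀ θ ∈ Θ, θ ≠ irrOne G ∧ ∀ g, ¬ InA A g → (θ : G → ℂ) g = (χ : G → ℂ) g + δ := fun χ δ θ k1 k2 k3 k4 => by
    refine ⟨univ.image θ, k1 ⟨η₁, h1⟩ ▸ h.cst_of fun η hη => (k1 ⟨η, hη⟩).trans (k1 ⟨η₁, h1⟩).symm, ?_, fun ψ hψ => ?_⟩
    · have : Nonempty {η // η ≠ irrOne A} := ⟨⟨η₁, h1⟩⟩
      have := h.card_nt ((univ.image θ).image fun ψ => (Function.invFun θ ψ).1) fun η hη =>
        ⟨_, mem_image_of_mem _ (mem_image_of_mem θ (mem_univ ⟨η, hη⟩)), (Function.invFun θ _).2,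
          k2 ⟨η, hη⟩ _ (Function.invFun_eq ⟨_, rfl⟩).symm⟩
      rw [he] at this
      have := card_image_le (s := univ.image θ) (f := fun ψ => (Function.invFun θ ψ).1)
      omega
    · obtain ⟨η, -, rfl⟩ := mem_image.1 hψ
      exact ⟨k3 η, k4 η⟩
  have h4 := hx ⟨η₂, h2⟩ ⟨η₁, h1⟩ h3
  have h5 := fun η g (hg : ¬ InA A g) => (congrFun (hd η) g).symm.trans (h.df_zero hg)
  simp only [Pi.sub_apply, Pi.add_apply, irrOne_apply] at h5
  rcases h4.1 with e | e
  · have k := common (fun i j H => (hx i j H).1) (fun i j H => (hc i j H).1) e fun e' => h4.2 ⟨e, e'⟩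
    obtain ⟨Θ, k1⟩ := key (a ⟨η₂, h2⟩) 1 b (fun η => by
        rw [hm, if_pos (k η), if_neg (ha _).symm, if_neg (k η ▸ (hab η).symm)]; rfl)
      (fun η η' e => by_contra fun H => (hx η η' H).2 ⟨(k η).trans (k η').symm, e⟩) hb
      fun η g hg => by rw [← k η]; linear_combination -h5 η g hg
    exact ⟨_, 1, Θ, .inl rfl, ha _, k1⟩
  · have k := common (fun i j H => (hx i j H).1.symm) (fun i j H => (hc i j H).2) e fun e' => h4.2 ⟨e', e⟩
    obtain ⟨Θ, k1⟩ := key (b ⟨η₂, h2⟩) (-1) a (fun η => by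
        rw [hm, if_pos (k η), if_neg (hb _).symm, if_neg (k η ▸ hab η)]; rfl)
      (fun η η' e => by_contra fun H => (hx η η' H).2 ⟨e, (k η).trans (k η').symm⟩) ha
      fun η g hg => by rw [← k η]; push_cast; linear_combination h5 η g hg
    exact ⟨_, -1, Θ, .inr rfl, hb _, k1⟩

end SSC

end Cfsg.Lib.HSz
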