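import Cfsg.Agent.Lib.HSz.Data

/-! A bound for the number of classes outside three strongly self-centralizing subgroups. -/

set_option autoImplicit false

namespace Cfsg.Lib.HSz
open Subgroup Finset Cfsg.Lib.Char Cfsg.Lib.OddChar Cfsg.Lib.Inv

variable {G : Type*} [Group G] [Fintype G]

open Classical in
theorem sum_cc_le {R : G → Prop} (hR : ∀ g x, R (x * g * x⁻¹) ↔ R g) (S : Finset (IrrCharacter G))
    (hS : ∀ ψ : IrrCharacter G, ∃ ξ ∈ S, ∀ g, R g → (ψ : G → ℂ) g = (ξ : G → ℂ) g) :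
    ∑ g ∈ univ.filter R, cc g ≤ #S * Nat.card G := by
  rw [sum_filter, sum_class fun g x => by rw [hR, cc_conj], sum_congr rfl fun C _ =>
    show _ = if R C.out then Nat.card G else 0 by
      split_ifs
      · exact (mul_comm _ _).trans (cc_mul_ci _)
      · exact smul_zero _, ← sum_filter, sum_const,
    smul_eq_mul, ← Fintype.card_subtype]
  refine Nat.mul_le_mul_right _ ?_
  let f := LinearMap.funLeft ℂ ℂ (Subtype.val : {C : ConjClasses G // R C.out} → ConjClasses G)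
  have e : ∀ (ψ : IrrCharacter G) C, f (irrBasis G ψ) C = (ψ : G → ℂ) C.1.out := fun ψ C => by
    rw [← irrBasis_apply_mk]; exact congrArg _ (Quotient.out_eq C.1).symm
  have h1 : Submodule.span ℂ (SetLike.coe (S.image fun ψ => f (irrBasis G ψ))) = ⊤ := by
    rw [eq_top_iff, ← LinearMap.range_eq_top.2 (LinearMap.funLeft_surjective_of_injective ℂ ℂ _ Subtype.val_injective),
      LinearMap.range_eq_map, ← (irrBasis G).span_eq, Submodule.map_span]
    refine Submodule.span_mono ?_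
    rintro _ ⟨_, ⟨ψ, rfl⟩, rfl⟩
    obtain ⟨ξ, h1, h2⟩ := hS ψ
    exact mem_coe.2 (mem_image.2 ⟨ξ, h1, funext fun C => (e ξ C).trans ((h2 _ C.2).symm.trans (e ψ C).symm)⟩)
  have := finrank_span_finset_le_card (R := ℂ) (S.image fun ψ => f (irrBasis G ψ))
  rw [Set.finrank, h1, finrank_top, Module.finrank_fintype_fun_eq_card] at this
  exact this.trans card_image_le

/-- The hypotheses on the three subgroups. -/
structure Sys (A B C : Subgroup G) : Prop where
  a : SSC A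
  b : SSC B
  c : SSC C
  ia : A.relIndex (normalizer (A : Set G)) = 2
  ib : B.relIndex (normalizer (B : Set G)) = 4
  ic : C.relIndex (normalizer (C : Set G)) = 4
  na : 5 ≤ Nat.card A
  nb : 5 < Nat.card B
  nc : 5 < Nat.card C
  ab : (Nat.card A).Coprime (Nat.card B)
  ac : (Nat.card A).Coprime (Nat.card C)
  bc : (Nat.card B).Coprime (Nat.card C)
  ord : Nat.card G ≤ 3 * (Nat.card A * (Nat.card B * Nat.card C)) ^ 2

/-- The elements outside the conjugates of the three subgroups. -/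
def Out (A B C : Subgroup G) (g : G) : Prop := ¬ InA A g ∧ ¬ InA B g ∧ ¬ InA C g

variable {A B C : Subgroup G}

omit [Fintype G] in
theorem out_conj (g x : G) : Out A B C (x * g * x⁻¹) ↔ Out A B C g := by simp only [Out, inA_conj_iff]

omit [Fintype G] in
theorem Sys.symm (h : Sys A B C) : Sys A C B :=
  ⟨h.a, h.c, h.b, h.ia, h.ic, h.ib, h.na, h.nc, h.nb, h.ac, h.ab, h.bc.symm, mul_comm (Nat.card B) _ ▸ h.ord⟩

open Classical in
theorem Sys.sum_cc (h : Sys A B C) : ∑ g ∈ univ.filter (Out A B C), cc g ≤ 16 * Nat.card G := by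
  obtain ⟨S₁, a1, a2⟩ := h.a.cover (by have := h.na; rw [h.ia]; omega)
  obtain ⟨S₂, b1, b2⟩ := h.b.cover (by rw [h.ib]; exact h.nb)
  obtain ⟨S₃, c1, c2⟩ := h.c.cover (by rw [h.ic]; exact h.nc)
  let Γ := univ.filter fun ψ : IrrCharacter G => Cst A ψ 0 ∧ Cst B ψ 0 ∧ Cst C ψ 0
  have h1 : #Γ * (Nat.card A * (Nat.card B * Nat.card C)) ^ 2 ≤ Nat.card G := by
    rw [← sum_charDegree_sq G, ← smul_eq_mul]
    refine (card_nsmul_le_sum _ _ _ fun ψ hψ => Nat.pow_le_pow_left (Nat.le_of_dvd ψ.2.charDegree_pos ?_) 2).trans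
      (sum_le_sum_of_subset (subset_univ _))
    have k : ∀ D : Subgroup G, Cst D ψ 0 → Nat.card D ∣ charDegree (ψ : G → ℂ) := fun D e => by
      have := Cst.dvd (v := 0) (by simpa using e) ψ.2.isCharacter (d := charDegree (ψ : G → ℂ))
        (by rw [ψ.2.apply_one_eq]; simp)
      rwa [sub_zero, Int.natCast_dvd_natCast] at this
    obtain ⟨e1, e2, e3⟩ := (mem_filter.1 hψ).2
    exact (h.ab.mul_right h.ac).mul_dvd_of_dvd_of_dvd (k A e1) (h.bc.mul_dvd_of_dvd_of_dvd (k B e2) (k C e3))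
  have h2 : #Γ ≤ 3 := Nat.le_of_mul_le_mul_right (h1.trans h.ord) (by
    have := h.na; have := h.nb; have := h.nc; positivity)
  refine (sum_cc_le out_conj (S₁ ∪ S₂ ∪ S₃ ∪ Γ) fun ψ => ?_).trans (Nat.mul_le_mul_right _ ?_)
  · rcases a2 ψ with e1 | ⟨ξ, e, e1⟩
    · rcases b2 ψ with e2 | ⟨ξ, e, e2⟩
      · rcases c2 ψ with e3 | ⟨ξ, e, e3⟩
        · exact ⟨ψ, by simp [Γ, e1, e2, e3], fun _ _ => rfl⟩
        · exact ⟨ξ, by simp [e], fun g hg => e3 g hg.2.2⟩
      · exact ⟨ξ, by simp [e], fun g hg => e2 g hg.2.1⟩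
    · exact ⟨ξ, by simp [e], fun g hg => e1 g hg.1⟩
  · have := card_union_le (S₁ ∪ S₂ ∪ S₃) Γ
    have := card_union_le (S₁ ∪ S₂) S₃
    have := card_union_le S₁ S₂
    rw [h.ia] at a1; rw [h.ib] at b1; rw [h.ic] at c1
    omega

end Cfsg.Lib.HSz
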