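import Cfsg.Agent.Lib.HSz.Char

/-! The distinguished character attached to a strongly self-centralizing subgroup of index two in its normalizer. -/

set_option autoImplicit false

namespace Cfsg.Lib.HSz
open Subgroup Finset Cfsg.Lib.Char Cfsg.Lib.Induce Cfsg.Lib.OddChar Cfsg.Lib.Inv
open scoped ComplexConjugate

variable {G : Type*} [Group G] [Fintype G] {A : Subgroup G} {g t : G} {φ : G → ℂ} {c : ℂ}

open Classical in
/-- The set of involutions. -/
noncomputable def invs (G : Type*) [Group G] [Fintype G] : Finset G := univ.filter (orderOf · = 2)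

theorem mem_invs : g ∈ invs G ↔ orderOf g = 2 := by simp [invs]

theorem sum_pr {M : Type*} [AddCommMonoid M] (f : G → M) :
    ∑ g, pr g • f g = ∑ u ∈ invs G, ∑ v ∈ invs G, f (u * v) := by
  classical
  rw [← sum_product', ← sum_fiberwise (s := invs G ×ˢ invs G) (g := fun p => p.1 * p.2)]
  refine sum_congr rfl fun g _ => ?_
  rw [sum_congr rfl fun p hp => by rw [(mem_filter.1 hp).2], sum_const, pr, Nat.card_eq_fintype_card,
    Fintype.card_subtype]
  congr 2
  ext p; simp [mem_invs, and_assoc]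

theorem Cst.sum [Fintype A] (h : Cst A φ c) : ∑ a : A, φ a = φ 1 + (Nat.card A - 1) * c := by
  classical
  rw [← add_sum_erase _ _ (mem_univ 1), sum_congr rfl fun (a : A) ha => h a a.2 fun e => (mem_erase.1 ha).1 (Subtype.ext e),
    sum_const, card_erase_of_mem (mem_univ _), card_univ, nsmul_eq_mul, Nat.cast_sub Fintype.card_pos,
    Nat.card_eq_fintype_card]
  simp

theorem Cst.dvd {v d : ℤ} (h : Cst A φ v) (hφ : IsCharacter G φ) (hd : φ 1 = d) : (Nat.card A : ℤ) ∣ d - v := by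
  classical
  obtain ⟨k, hk⟩ := (hφ.restrict A).exists_inner_eq_nat isIrrCharacter_one.isCharacter
  rw [classInner_one_right, h.sum, hd, inv_mul_eq_iff_eq_mul₀ (card_ne_zero_complex A)] at hk
  exact ⟨k - v, by exact_mod_cast (by push_cast; linear_combination hk : ((d - v : ℤ) : ℂ) = (Nat.card A * (k - v) : ℤ))⟩

theorem SSC.le_deg (h : SSC A) (he : Even (A.relIndex (normalizer (A : Set G)))) (h0 : Cst A φ 0)
    (hφ : IsCharacter G φ) {y d : ℤ} (hd : φ 1 = d) (hy : ∀ u, orderOf u = 2 → φ u = y) : Nat.card A * y ≤ d := by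
  classical
  obtain ⟨t, hN, ht⟩ := h.exists_inv he
  have htA : t ∉ A := fun e => h.not_inA he ht (.of_mem e (ne_one_of_orderOf ht))
  have tt := mul_self_of_orderOf ht
  have hc : ∀ a ∈ A, t * a * t ∈ A := fun a ha => by
    simpa [inv_eq_of_orderOf ht] using (mem_normalizer_iff.1 hN a).1 ha
  let H : Subgroup G :=
    { carrier := {g | g ∈ A ∨ t * g ∈ A}
      one_mem' := .inl A.one_mem
      mul_mem' := by
        rintro a b (ha | ha) (hb | hb)
        · exact .inl (A.mul_mem ha hb)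
        · exact .inr (by simpa [mul_assoc, ← mul_assoc t t, tt] using A.mul_mem (hc a ha) hb)
        · exact .inr (by simpa [mul_assoc] using A.mul_mem ha hb)
        · exact .inl (by simpa [mul_assoc, ← mul_assoc t t, tt] using A.mul_mem (hc _ ha) hb)
      inv_mem' := by
        rintro a (ha | ha)
        · exact .inl (A.inv_mem ha)
        · exact .inr (by simpa [mul_assoc, inv_eq_of_orderOf ht, tt] using hc _ (A.inv_mem ha)) }
  have hA : A ≤ H := fun _ => .inl
  have hs : ∀ f : G → ℂ, ∑ g : H, f g = ∑ a : A, f a + ∑ a : A, f (t * a) := fun f => by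
    refine (Fintype.sum_bijective (fun s : A ⊕ A => (⟨s.elim Subtype.val fun a => t * a.1, ?_⟩ : H)) ⟨?_, ?_⟩
      (fun s => f (s.elim Subtype.val fun a => t * a.1)) _ fun _ => rfl).symm.trans (Fintype.sum_sum_type _)
    · rcases s with a | a
      · exact .inl a.2
      · exact .inr (by simp [← mul_assoc, tt])
    · rintro (a | a) (b | b) e <;> simp only [Sum.elim_inl, Sum.elim_inr, Subtype.mk.injEq] at e
      · rw [Subtype.ext e]
      · exact absurd ((A.mul_mem_cancel_right b.2).1 (e ▸ a.2)) htA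
      · exact absurd ((A.mul_mem_cancel_right a.2).1 (e ▸ b.2)) htA
      · rw [Subtype.ext (mul_left_cancel e)]
    · rintro ⟨g, hg | hg⟩
      · exact ⟨.inl ⟨g, hg⟩, rfl⟩
      · exact ⟨.inr ⟨_, hg⟩, by simp [← mul_assoc, tt]⟩
  obtain ⟨k, hk⟩ := exists_inner_comp_eq_add (inclusion hA) (hφ.restrict H) isIrrCharacter_one
    isIrrCharacter_one.isCharacter
  have e1 := hs fun _ => 1
  simp only [sum_const, card_univ, nsmul_eq_mul, mul_one, ← Nat.card_eq_fintype_card] at e1
  have e2 := card_ne_zero_complex A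
  simp only [classInner_one_right, coe_inclusion, hs, h0.sum, hd, fun a : A => hy _ (h.inv_mul he ht hN a.2), e1,
    sum_const, card_univ, nsmul_eq_mul, ← Nat.card_eq_fintype_card] at hk
  have e3 : ((d - Nat.card A * y : ℤ) : ℂ) = (2 * Nat.card A * k : ℤ) := by
    rw [← two_mul] at hk
    push_cast; field_simp at hk; linear_combination hk
  have e4 : d - Nat.card A * y = 2 * Nat.card A * k := by exact_mod_cast e3
  have : (0 : ℤ) ≤ 2 * Nat.card A * k := by positivity
  omega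

/-- The properties of the (signed) non-exceptional character. -/
structure XD (A : Subgroup G) (x : G → ℤ) : Prop where
  cls : ∀ g y, x (y * g * y⁻¹) = x g
  one : ∀ a, InA A a → x a = 1
  sum : ∑ g, x g = 0
  sq : ∑ g, x g ^ 2 = Nat.card G
  dv0 : ∀ g, x 1 ∣ ci g * x g
  dv1 : ∀ g, ¬ InA A g → x 1 + 1 ∣ ci g * (x g + 1)
  dg0 : x 1 ∣ Nat.card G
  dg1 : x 1 + 1 ∣ Nat.card G
  dn : (Nat.card A : ℤ) ∣ x 1 - 1
  cj : ∀ t u : G, orderOf t = 2 → orderOf u = 2 → IsConj t u
  ne : ∀ t, orderOf t = 2 → x t ≠ x 1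
  inv : ∀ t, orderOf t = 2 → Nat.card G * (x 1 - x t) ^ 2 = Nat.card A * cc t ^ 2 * (x 1 * (x 1 + 1))
  four : ∀ B : Subgroup G, SSC B → B.relIndex (normalizer (B : Set G)) = 4 → 5 < Nat.card B →
    (Nat.card A).Coprime (Nat.card B) → ∃ v, (v = -1 ∨ v = 0 ∧ Nat.card A ≤ 7) ∧ (∀ b, InA B b → x b = v) ∧
      (Nat.card B : ℤ) ∣ x 1 - v ∧ ∀ t, orderOf t = 2 → (Nat.card B - 1) * |x 1 - v| ≤ Nat.card B * |x 1 - x t|

omit [Fintype G] in
theorem dvd_of_irr [Finite G] {ψ : G → ℂ} (h : IsIrrCharacter G ψ) {δ a b : ℤ} (hδ : δ = 1 ∨ δ = -1)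
    (h1 : ψ 1 = δ * a) (h2 : ψ g = δ * b) : a ∣ ci g * b := by
  have := h.isIntegral_centralChar g
  have e : a ≠ 0 := fun e => h.apply_one_ne_zero (by simp [h1, e])
  have e1 : (δ : ℂ) ≠ 0 := by rcases hδ with rfl | rfl <;> simp
  rw [centralChar_def, h1, h2, mul_left_comm, mul_div_mul_left _ _ e1] at this
  exact int_dvd_of_isIntegral_div e (by push_cast; exact this)

omit [Fintype G] in
theorem deg_of_irr [Finite G] {ψ : G → ℂ} (h : IsIrrCharacter G ψ) {δ a : ℤ} (hδ : δ = 1 ∨ δ = -1)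
    (h1 : ψ 1 = δ * a) : a ∣ Nat.card G ∧ |a| = δ * a := by
  have e : (charDegree ψ : ℤ) = δ * a := by exact_mod_cast h.apply_one_eq.symm.trans h1
  have e1 := Int.natCast_dvd_natCast.2 h.charDegree_dvd_card
  have e2 := h.charDegree_pos
  rw [e] at e1
  refine ⟨(dvd_mul_left a δ).trans e1, ?_⟩
  rcases hδ with rfl | rfl
  · rw [abs_of_pos (by omega), one_mul]
  · rw [abs_of_neg (by omega), neg_one_mul]

theorem SSC.not_inA_of_cop {B : Subgroup G} (h : SSC A) (hB : SSC B) (hc : (Nat.card A).Coprime (Nat.card B))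
    (hg : InA B g) : ¬ InA A g := fun e =>
  hg.1 (orderOf_eq_one_iff.1 (Nat.eq_one_of_dvd_coprimes hc (h.orderOf_dvd e) (hB.orderOf_dvd hg)))

theorem SSC.exists_xd [IsSimpleGroup G] (h : SSC A) (he : A.relIndex (normalizer (A : Set G)) = 2)
    (hn : 3 < Nat.card A) : ∃ x, XD A x := by
  classical
  obtain ⟨χ, δ, Θ, hδ, h1, h2, h3, h4⟩ := h.two he hn
  have hev : Even (A.relIndex (normalizer (A : Set G))) := he ▸ even_two
  have dd : (δ : ℂ) * δ = 1 := by rcases hδ with rfl | rfl <;> simp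
  have dd' : δ * δ = 1 := by exact_mod_cast dd
  have h1' : (χ : G → ℂ) ≠ fun _ => 1 := fun e => h1 (Subtype.ext e)
  have hint : ∀ g, ∃ n : ℤ, (χ : G → ℂ) g = n := fun g =>
    χ.2.isGeneralizedCharacter.exists_int_of_forall_pow fun k hk => by
      obtain ⟨σ, hσ⟩ := exists_ringEquiv_map_apply_eq_pow g hk
      let ψ : IrrCharacter G := ⟨_, χ.2.map_ringEquiv σ⟩
      have e : ψ = χ := by_contra fun e => by
        have e1 : ψ ≠ irrOne G := fun e1 => h1' (funext fun y => σ.injective ((congrFun (congrArg Subtype.val e1) y).trans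
          (map_one σ).symm))
        have := h.bound (by omega) {ψ, χ, irrOne G} (fun ξ => if ξ = irrOne G then 1 else δ) fun ξ hξ => by
          simp only [mem_insert, mem_singleton] at hξ
          rcases hξ with rfl | rfl | rfl
          · rw [if_neg e1]; exact fun a ha h5 => (congrArg σ (h2 a ha h5)).trans (map_intCast σ δ)
          · rw [if_neg h1]; exact h2
          · rw [if_pos rfl]; exact h.cst_one
        rw [sum_insert (by simp [e, e1]), sum_pair h1, if_neg e1, if_neg h1, if_pos rfl, he, _root_.sq, dd'] at this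
        omega
      rw [← hσ _ χ.2.isGeneralizedCharacter]
      exact congrFun (congrArg Subtype.val e) g
  choose X hX using hint
  have hx' : ∀ g, (χ : G → ℂ) g = δ * (δ * X g : ℤ) := fun g => by rw [hX]; push_cast; rw [← mul_assoc, dd, one_mul]
  obtain ⟨x, hx⟩ : ∃ x : G → ℤ, ∀ g, (χ : G → ℂ) g = δ * x g := ⟨_, hx'⟩
  clear hx'
  have δ0 : (δ : ℂ) ≠ 0 := left_ne_zero_of_mul_eq_one dd
  have hinj : ∀ {g g'}, (χ : G → ℂ) g = (χ : G → ℂ) g' → x g = x g' := fun e => by
    rw [hx, hx] at e; exact_mod_cast mul_left_cancel₀ δ0 e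
  have hθ : ∀ θ ∈ Θ, ∀ g, ¬ InA A g → (θ : G → ℂ) g = δ * (x g + 1 : ℤ) := fun θ hθ g hg => by
    rw [(h4 θ hθ).2 g hg, hx]; push_cast; ring
  obtain ⟨θ, hθ1, θ', hθ2, hθ3⟩ := one_lt_card.1 (show 1 < #Θ by omega)
  have cls : ∀ g y, x (y * g * y⁻¹) = x g := fun g y => hinj (χ.2.isClassFunction g y)
  have d0 := deg_of_irr χ.2 hδ (hx 1)
  have d1 := deg_of_irr θ.2 hδ (hθ θ hθ1 1 not_inA_one)
  have x0 : (x 1 : ℂ) ≠ 0 := fun e => χ.2.apply_one_ne_zero (by rw [hx, e, mul_zero])
  have x1 : (x 1 : ℂ) + 1 ≠ 0 := fun e => θ.2.apply_one_ne_zero (by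
    rw [hθ θ hθ1 1 not_inA_one]; push_cast; rw [e, mul_zero])
  have ne : ∀ t, orderOf t = 2 → x t ≠ x 1 := fun t ht e => ne_one_of_orderOf ht (by
    rw [← Subgroup.mem_bot, ← χ.2.charKer_eq_bot_of_isSimpleGroup h1', χ.2.isCharacter.mem_charKer_iff, hx, hx, e])
  let ω : G → ℂ := fun g => 1 + δ * (χ : G → ℂ) g - δ * (θ : G → ℂ) g
  have ω0 : ∀ g, ¬ InA A g → ω g = 0 := fun g hg => by
    simp only [ω, (h4 θ hθ1).2 g hg]; linear_combination -dd
  have ωs : ∀ a b : G, orderOf a = 2 → orderOf b = 2 → ∑ y, ω (y * a * y⁻¹ * b) =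
      Nat.card G * ((x 1 - x a) * (x 1 - x b)) / (x 1 * (x 1 + 1)) := fun a b ha hb => by
    simp only [ω, sum_sub_distrib, sum_add_distrib, ← mul_sum, χ.2.sum_conj_mul, θ.2.sum_conj_mul]
    simp only [hx, hθ θ hθ1 _ (h.not_inA hev ha), hθ θ hθ1 _ (h.not_inA hev hb), hθ θ hθ1 _ not_inA_one, sum_const, card_univ,
      ← Nat.card_eq_fintype_card]
    rcases hδ with rfl | rfl <;> push_cast <;> field_simp <;> ring
  have cj : ∀ t u : G, orderOf t = 2 → orderOf u = 2 → IsConj t u := fun t u ht hu => by_contra fun e => by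
    have := ωs t u ht hu
    rw [sum_eq_zero fun y _ => ω0 _ fun e1 => e ((isConj_iff.2 ⟨y, rfl⟩).trans (isConj_of_odd
      (mul_self_of_orderOf ((orderOf_conj' y t).trans ht)) (mul_self_of_orderOf hu)
        ((h.odd hev).of_dvd_nat (h.orderOf_dvd e1)))), eq_comm, div_eq_zero_iff] at this
    simp only [mul_eq_zero, x0, x1, card_ne_zero_complex G, or_self, or_false, false_or, sub_eq_zero] at this
    exact this.elim (fun e => ne t ht (by exact_mod_cast e.symm)) fun e => ne u hu (by exact_mod_cast e.symm)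
  have xi : ∀ t u : G, orderOf t = 2 → orderOf u = 2 → x u = x t := fun t u ht hu => by
    obtain ⟨y, rfl⟩ := isConj_iff.1 (cj t u ht hu); exact cls t y
  refine ⟨x, cls, fun a ha => ha.ind cls fun a ha h5 => ?_, ?_, ?_, fun g => dvd_of_irr χ.2 hδ (hx 1) (hx g),
    fun g hg => dvd_of_irr θ.2 hδ (hθ θ hθ1 1 not_inA_one) (hθ θ hθ1 g hg), d0.1, d1.1, ?_, cj, ne, fun t ht => ?_,
    fun B hB hB4 hB5 hc => ?_⟩
  · exact_mod_cast mul_left_cancel₀ δ0 ((hx a).symm.trans ((h2 a ha h5).trans (mul_one _).symm))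
  · have := χ.2.sum_eq_zero h1'
    simp only [hx, ← mul_sum, mul_eq_zero, δ0, false_or] at this
    exact_mod_cast this
  · have := χ.2.sum_norm_sq
    simp only [hX, Complex.norm_intCast, sq_abs] at this
    rw [sum_congr rfl fun g _ => show x g ^ 2 = X g ^ 2 from ?_]
    · exact_mod_cast this
    · have e : X g = δ * x g := by exact_mod_cast (hX g).symm.trans (hx g)
      rw [e, mul_pow, _root_.sq δ, dd', one_mul]
  · have := h2.dvd χ.2.isCharacter (d := δ * x 1) (by rw [hx]; simp)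
    simpa [mul_sub, ← mul_assoc, dd'] using this.mul_left δ
  · have e1 : ∑ g, pr g • ω g = Nat.card A * Nat.card G := by
      rw [sum_congr rfl fun g _ => show pr g • ω g = Nat.card A * ω g from ?_, ← mul_sum]
      · simp [ω, sum_add_distrib, ← mul_sum, χ.2.sum_eq_zero h1',
          θ.2.sum_eq_zero fun e => (h4 θ hθ1).1 (Subtype.ext e)]
      · by_cases e : InA A g
        · rw [h.pr_eq hev e, nsmul_eq_mul]
        · simp [ω0 g e]
    have hI : invs G = univ.filter (IsConj t) := by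
      ext u; simp only [mem_invs, mem_filter, mem_univ, true_and]
      exact ⟨cj t u ht, fun e => (orderOf_eq_of_isConj e).symm.trans ht⟩
    have e2 : cc t * ∑ g, pr g • ω g = ci t * (Nat.card G * ((x 1 - x t) * (x 1 - x t)) / (x 1 * (x 1 + 1))) := by
      rw [sum_pr, sum_comm, mul_sum, ci, ← card_filter_isConj, ← hI, ← nsmul_eq_mul, ← sum_const]
      refine sum_congr rfl fun v hv => ?_
      rw [hI, ← sum_conj_eq_card_centralizer_mul (fun u => ω (u * v)), ωs t v ht (mem_invs.1 hv),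
        xi t v ht (mem_invs.1 hv)]
    have e3 : (Nat.card G : ℂ) = cc t * ci t := by exact_mod_cast (cc_mul_ci t).symm
    have e4 := card_ne_zero_complex G
    rw [e1, mul_div_assoc', eq_div_iff (mul_ne_zero x0 x1)] at e2
    have : ((Nat.card G * (x 1 - x t) ^ 2 : ℤ) : ℂ) = (Nat.card A * cc t ^ 2 * (x 1 * (x 1 + 1)) : ℤ) := by
      refine mul_left_cancel₀ e4 ?_
      push_cast
      linear_combination (-(cc t : ℂ)) * e2 + Nat.card G * (x 1 - x t) ^ 2 * e3
    exact_mod_cast this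
  · have nA : ∀ b ∈ B, b ≠ 1 → ¬ InA A b := fun b hb h5 => h.not_inA_of_cop hB hc (.of_mem hb h5)
    obtain ⟨w, hw⟩ := hB.exists_cst (by omega) hθ3 fun b hb h5 => by
      rw [hθ θ hθ1 b (nA b hb h5), hθ θ' hθ2 b (nA b hb h5)]
    have hv : ∀ b ∈ B, b ≠ 1 → x b = δ * w - 1 := fun b hb h5 => by
      have e : w = δ * (x b + 1) := by exact_mod_cast (hw b hb h5).symm.trans (hθ θ hθ1 b (nA b hb h5))
      rw [e, ← mul_assoc, dd']; ring
    have c0 : Cst B χ (δ * (δ * w - 1) : ℤ) := fun b hb h5 => by rw [hx, hv b hb h5]; simp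
    have c1 : ∀ ξ ∈ Θ, Cst B ξ (δ * (δ * w) : ℤ) := fun ξ hξ b hb h5 => by
      rw [hθ ξ hξ b (nA b hb h5), hv b hb h5]; simp
    have n1 : χ ∉ Θ := fun e => δ0 (by simpa using (h4 χ e).2 1 not_inA_one)
    have n2 : irrOne G ∉ insert χ Θ := by
      rw [mem_insert, not_or]; exact ⟨h1.symm, fun e => (h4 _ e).1 rfl⟩
    have hb := hB.bound (by omega) (insert (irrOne G) (insert χ Θ))
      (fun ξ => if ξ = irrOne G then 1 else if ξ = χ then δ * (δ * w - 1) else δ * (δ * w)) fun ξ hξ => by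
        split_ifs with e1 e2
        · exact e1 ▸ hB.cst_one
        · exact e2 ▸ c0
        · exact c1 ξ (by simpa [e1, e2] using hξ)
    rw [sum_insert n2, sum_insert n1, if_pos rfl, if_neg h1, if_pos rfl, sum_congr rfl fun ξ hξ => by
      rw [if_neg (h4 ξ hξ).1, if_neg fun e => n1 (by rwa [← e])], sum_const, hB4, nsmul_eq_mul, mul_pow, mul_pow,
      _root_.sq δ, dd'] at hb
    generalize δ * w = z at hb hv c0 c1
    have k2 : (2 : ℤ) ≤ #Θ := by omega
    have evB : Even (B.relIndex (normalizer (B : Set G))) := by rw [hB4]; decide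
    have key : ∀ (ψ : IrrCharacter G) (v : ℤ), Cst B ψ 0 → (∀ g, ¬ InA A g → (ψ : G → ℂ) g = δ * (x g - v : ℤ)) →
        (Nat.card B : ℤ) ∣ x 1 - v ∧ ∀ t, orderOf t = 2 → (Nat.card B - 1) * |x 1 - v| ≤ Nat.card B * |x 1 - x t| :=
      fun ψ v k0 k1 => ⟨by
        have := Cst.dvd (v := 0) (by simpa using k0) ψ.2.isCharacter (d := δ * (x 1 - v)) (by
          rw [k1 1 not_inA_one]; simp)
        simpa [← mul_assoc, dd'] using this.mul_left δ, fun t ht => by
        have e1 := hB.le_deg evB k0 ψ.2.isCharacter (d := δ * (x 1 - v)) (y := δ * (x t - v))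
          (by rw [k1 1 not_inA_one]; simp) fun u hu => by rw [k1 u (h.not_inA hev hu), xi t u ht hu]; simp
        have e2 : δ * (x 1 - x t) ≤ |x 1 - x t| := by
          rcases hδ with rfl | rfl
          · rw [one_mul]; exact le_abs_self _
          · rw [neg_one_mul]; exact neg_le_abs _
        rw [(deg_of_irr ψ.2 hδ (k1 1 not_inA_one)).2]
        nlinarith [mul_le_mul_of_nonneg_left e2 (Nat.cast_nonneg (Nat.card B))]⟩
    have hz : z = 0 ∨ z = 1 ∧ #Θ ≤ 3 := by
      push_cast at hb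
      have : 3 * z ^ 2 - 2 * z ≤ 2 := by nlinarith [mul_le_mul_of_nonneg_right k2 (sq_nonneg z)]
      have : 0 ≤ z := by nlinarith
      have : z ≤ 1 := by nlinarith
      interval_cases z
      · exact .inl rfl
      · exact .inr ⟨rfl, by omega⟩
    rcases hz with rfl | ⟨rfl, hz⟩
    · exact ⟨-1, .inl rfl, fun b hb => hb.ind cls hv, key θ (-1) (by simpa using c1 θ hθ1) fun g hg => by
        rw [hθ θ hθ1 g hg, sub_neg_eq_add]⟩
    · exact ⟨0, .inr ⟨rfl, by omega⟩, fun b hb => hb.ind cls hv, key χ 0 (by simpa using c0) fun g _ => by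
        rw [hx, sub_zero]⟩

end Cfsg.Lib.HSz
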