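import Cfsg.Agent.Lib.HSz.Count
import Cfsg.Agent.Lib.HSz.Arith
import Cfsg.Agent.Lib.BG.Basic

/-! Reduction to the generic case: the centralizer of an involution has the order of the character degree. -/

set_option autoImplicit false

namespace Cfsg.Lib.HSz
open Subgroup Finset Cfsg.Lib.Char Cfsg.Lib.OddChar Cfsg.Lib.Inv

variable {G : Type*} [Group G] [Fintype G] {A B C : Subgroup G} {x : G → ℤ} {g y t : G}

open Classical in
theorem SSC.card_inA' (h : SSC A) : (#(univ.filter (InA A)) : ℤ) * (Nat.card A * A.relIndex (normalizer (A : Set G))) =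
    Nat.card G * (Nat.card A - 1) := by
  have := h.card_inA
  rw [← BG.card_mul_relIndex (le_normalizer (H := A))] at this
  zify at this; linarith

theorem SSC.rel_dvd (h : SSC A) : (A.relIndex (normalizer (A : Set G)) : ℤ) ∣ Nat.card A - 1 := by
  classical
  have := dvd_sum_class (G := normalizer (A : Set G)) (f := fun a => if (a : G) ∈ A ∧ a ≠ 1 then 1 else 0)
    (n := A.relIndex (normalizer (A : Set G))) (fun a y => if_congr (and_congr
      (mem_normalizer_iff.1 y.2 a).symm (by simp)) rfl rfl) fun a ha => by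
      have e : (a : G) ∈ A ∧ a ≠ 1 := by_contra fun e => ha (if_neg e)
      refine dvd_of_eq (congrArg index (Subgroup.ext fun y => ?_))
      rw [mem_subgroupOf, ← h.mem_iff e.1 fun e1 => e.2 (Subtype.ext e1), mem_centralizer_singleton_iff, Subtype.ext_iff]
      rfl
  rw [sum_boole] at this
  have e : #(univ.filter fun a : normalizer (A : Set G) => (a : G) ∈ A ∧ a ≠ 1) + 1 = Nat.card A := by
    rw [← Fintype.card_subtype, ← Nat.card_eq_fintype_card, card_subtype_ne_add_one (P := fun a :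
      normalizer (A : Set G) => (a : G) ∈ A) A.one_mem]
    exact Nat.card_congr (subgroupOfEquivOfLe le_normalizer).toEquiv
  rw [← e]; simpa using this

omit [Fintype G] in
theorem out_one : Out A B C 1 := ⟨not_inA_one, not_inA_one, not_inA_one⟩

theorem small' {a b c : ℤ} (ha : 5 ≤ a) (ha7 : a ≤ 7) (ho : a % 2 = 1) (hb : 9 ≤ b) (hb4 : b % 4 = 1) (hc : b < c)
    (hc4 : c % 4 = 1) (h : (c - 1) ^ 2 * (2 * a + b + c - 4) ≤ 4 * a * (c * (c + 1))) : a = 7 ∧ b = 9 ∧ c = 13 := by
  have e1 : (c - 1) ^ 2 * (2 * a + c + 5) ≤ 4 * a * (c * (c + 1)) :=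
    (mul_le_mul_of_nonneg_left (by omega) (sq_nonneg _)).trans h
  have c13 : 13 ≤ c := by omega
  obtain rfl | rfl : a = 5 ∨ a = 7 := by omega
  · nlinarith [mul_nonneg (sub_nonneg.2 c13) (sq_nonneg c), sq_nonneg (c - 13)]
  · by_cases e : c = 13
    · subst e; omega
    · have c17 : 17 ≤ c := by omega
      nlinarith [mul_nonneg (sub_nonneg.2 c17) (sq_nonneg c), sq_nonneg (c - 17)]

namespace Sys
variable (h : Sys A B C)
include h

omit [Fintype G] in
theorem ea : Even (A.relIndex (normalizer (A : Set G))) := h.ia ▸ even_two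
omit [Fintype G] in
theorem eb : Even (B.relIndex (normalizer (B : Set G))) := by rw [h.ib]; decide
omit [Fintype G] in
theorem ec : Even (C.relIndex (normalizer (C : Set G))) := h.symm.eb

theorem out_inv (ht : orderOf t = 2) : Out A B C t := ⟨h.a.not_inA h.ea ht, h.b.not_inA h.eb ht, h.c.not_inA h.ec ht⟩

omit [Fintype G] in
theorem out_comm (hg : Out A B C g) (h1 : g ≠ 1) (e : g * y = y * g) : Out A B C y :=
  ⟨fun e1 => hg.1 (h.a.of_comm e1 h1 e), fun e1 => hg.2.1 (h.b.of_comm e1 h1 e), fun e1 => hg.2.2 (h.c.of_comm e1 h1 e)⟩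

theorem b4 : (Nat.card B : ℤ) % 4 = 1 ∧ 9 ≤ (Nat.card B : ℤ) := by
  have := h.b.rel_dvd
  have := h.nb
  rw [h.ib] at *; omega

theorem a2 : (Nat.card A : ℤ) % 2 = 1 := by
  have := h.a.rel_dvd
  rw [h.ia] at *; omega

theorem ne : (Nat.card B : ℤ) ≠ Nat.card C := fun e => by
  have h1 := h.bc
  have := h.nc
  rw [Int.natCast_inj.1 e, Nat.coprime_self] at h1; omega

theorem cop (hg : Out A B C g) (h1 : g ≠ 1) : (Nat.card A * (Nat.card B * Nat.card C)).Coprime (cc g) :=
  (h.a.cop_cc h1 hg.1).mul_left ((h.b.cop_cc h1 hg.2.1).mul_left (h.c.cop_cc h1 hg.2.2))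

theorem dvd : Nat.card A * (Nat.card B * Nat.card C) ∣ Nat.card G :=
  (h.ab.mul_right h.ac).mul_dvd_of_dvd_of_dvd A.card_subgroup_dvd_card
    (h.bc.mul_dvd_of_dvd_of_dvd B.card_subgroup_dvd_card C.card_subgroup_dvd_card)

theorem dvd_ci (hg : Out A B C g) (h1 : g ≠ 1) : Nat.card A * (Nat.card B * Nat.card C) ∣ ci g :=
  (h.cop hg h1).dvd_of_dvd_mul_left (cc_mul_ci g ▸ h.dvd)

open Classical in
theorem sum_eq {f : G → ℤ} {α β γ : ℤ} (h1 : ∀ g, InA A g → f g = α) (h2 : ∀ g, InA B g → f g = β)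
    (h3 : ∀ g, InA C g → f g = γ) : 4 * (Nat.card A * (Nat.card B * Nat.card C)) * ∑ g, f g =
      Nat.card G * (2 * (Nat.card A - 1) * (Nat.card B * Nat.card C) * α + (Nat.card B - 1) * (Nat.card A * Nat.card C) * β
        + (Nat.card C - 1) * (Nat.card A * Nat.card B) * γ) +
      4 * (Nat.card A * (Nat.card B * Nat.card C)) * ∑ g ∈ univ.filter (Out A B C), f g := by
  have e : ∀ g, f g = (if InA A g then α else 0) + (if InA B g then β else 0) + (if InA C g then γ else 0) +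
      if Out A B C g then f g else 0 := fun g => by
    have k1 := h.a.not_inA_of_cop h.b h.ab (g := g)
    have k2 := h.a.not_inA_of_cop h.c h.ac (g := g)
    have k3 := h.b.not_inA_of_cop h.c h.bc (g := g)
    by_cases a : InA A g <;> by_cases b : InA B g <;> by_cases c : InA C g <;> simp_all [Out]
  have e1 := h.a.card_inA'
  have e2 := h.b.card_inA'
  have e3 := h.c.card_inA'
  rw [h.ia] at e1; rw [h.ib] at e2; rw [h.ic] at e3
  rw [sum_congr rfl fun g _ => e g]
  simp only [sum_add_distrib, ← sum_filter, sum_const, nsmul_eq_mul]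
  push_cast at e1 e2 e3
  linear_combination 2 * (Nat.card B * Nat.card C) * α * e1 + (Nat.card A * Nat.card C) * β * e2 +
    (Nat.card A * Nat.card B) * γ * e3

theorem pos : (0 : ℤ) < Nat.card A * (Nat.card B * Nat.card C) := by
  have := h.na; have := h.nb; have := h.nc; positivity

variable (hx : XD A x) (ht : orderOf t = 2)
include hx ht

omit h in
theorem invs_eq [DecidablePred (IsConj t)] : invs G = univ.filter (IsConj t) := by
  ext u; simp only [mem_invs, mem_filter, mem_univ, true_and]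
  exact ⟨hx.cj t u ht, fun e => (orderOf_eq_of_isConj e).symm.trans ht⟩

omit h in
theorem card_invs : #(invs G) = ci t := by classical rw [invs_eq hx ht]; convert card_filter_isConj t

omit h in
theorem odd_ci : Odd (ci t) := by
  classical
  have := odd_card_involutions (G := G) (even_iff_two_dvd.2 (ht ▸ orderOf_dvd_natCard t))
  rwa [Nat.card_eq_fintype_card, Fintype.card_subtype, ← invs, card_invs hx ht] at this

open Classical in
theorem sq_ci : 4 * (ci t : ℤ) ^ 2 = Nat.card G * (2 * Nat.card A + Nat.card B + Nat.card C - 4) +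
    4 * ∑ g ∈ univ.filter (Out A B C), (pr g : ℤ) := by
  have e := h.sum_eq (f := fun g => pr g) (fun g hg => congrArg _ (h.a.pr_eq h.ea hg))
    (fun g hg => congrArg _ (h.b.pr_eq h.eb hg)) fun g hg => congrArg _ (h.c.pr_eq h.ec hg)
  have e1 := sum_pr (G := G) fun _ => (1 : ℤ)
  simp only [nsmul_eq_mul, mul_one, sum_const, card_invs hx ht] at e1
  rw [e1] at e
  exact mul_left_cancel₀ h.pos.ne' (by linear_combination e)

open Classical in
theorem generic : (∀ b, InA B b → x b = -1) ∧ (∀ b, InA C b → x b = -1) ∧ x t = 0 ∧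
    (Nat.card B * Nat.card C : ℤ) ∣ x 1 + 1 ∧ (Nat.card G : ℤ) = Nat.card A * (x 1 * (x 1 + 1)) ∧
    ∀ g, Out A B C g → g ≠ 1 → x g = 0 ∨ x g = -1 := by
  obtain ⟨v, v1, v2, v3, v4⟩ := hx.four B h.b h.ib h.nb h.ab
  obtain ⟨w, w1, w2, w3, w4⟩ := hx.four C h.c h.ic h.nc h.ac
  have g0 : (0 : ℤ) < Nat.card G := by exact_mod_cast Nat.card_pos
  have a5 : (5 : ℤ) ≤ Nat.card A := by exact_mod_cast h.na
  have ao : Odd (Nat.card A : ℤ) := Int.odd_iff.2 h.a2
  let f : G → ℤ := fun g => if Out A B C g ∧ g ≠ 1 then x g * (x g + 1) else 0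
  have nn : ∀ z : ℤ, 0 ≤ z * (z + 1) := fun z => by
    rcases le_or_gt 0 z with e | e
    · positivity
    · exact mul_nonneg_of_nonpos_of_nonpos e.le (by omega)
  have f0 : ∀ g, 0 ≤ f g := fun g => by simp only [f]; split_ifs; exacts [nn _, le_rfl]
  have fc : ∀ g y, f (y * g * y⁻¹) = f g := fun g y => by simp [f, out_conj, hx.cls]
  have e1 : (Nat.card G : ℤ) = Nat.card A * (x 1 * (x 1 + 1) + ∑ g, f g) := by
    have e := h.sum_eq (f := fun g => x g * (x g + 1)) (α := 2) (β := 0) (γ := 0) (fun g hg => by simp [hx.one g hg])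
      (fun g hg => by rcases v1 with rfl | ⟨rfl, -⟩ <;> simp [v2 g hg])
      fun g hg => by rcases w1 with rfl | ⟨rfl, -⟩ <;> simp [w2 g hg]
    rw [show ∑ g, x g * (x g + 1) = Nat.card G by simp only [mul_add, ← sq, sum_add_distrib, mul_one, hx.sq, hx.sum,
      add_zero], ← add_sum_erase _ _ (mem_filter.2 ⟨mem_univ 1, out_one⟩),
      show (univ.filter (Out A B C)).erase 1 = univ.filter fun g => Out A B C g ∧ g ≠ 1 by ext; simp [and_comm],
      sum_filter] at e
    have := h.b4.2; have := h.symm.b4.2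
    exact mul_left_cancel₀ (a := (4 * (Nat.card B * Nat.card C) : ℤ)) (by positivity) (by linear_combination e)
  have D0 : x 1 ≠ 0 := fun e => g0.ne' (zero_dvd_iff.1 (e ▸ hx.dg0))
  have D1 : x 1 + 1 ≠ 0 := fun e => g0.ne' (zero_dvd_iff.1 (e ▸ hx.dg1))
  have hp : 0 < x 1 * (x 1 + 1) := (nn _).lt_of_ne' (mul_ne_zero D0 D1)
  obtain ⟨j, hj⟩ := hx.dn
  have c0 : IsCoprime (x 1) (Nat.card A : ℤ) := ⟨1, -j, by linear_combination hj⟩
  have c1 : IsCoprime (x 1 + 1) (Nat.card A : ℤ) := by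
    rw [show x 1 + 1 = 2 + Nat.card A * j by omega]
    exact (Int.isCoprime_two_left.2 ao).add_mul_left_left j
  obtain ⟨s, hs⟩ := (c0.mul_left c1).dvd_of_dvd_mul_left (e1 ▸ IsCoprime.mul_dvd ⟨-1, 1, by ring⟩ hx.dg0 hx.dg1)
  have e2 : ∑ g, f g = x 1 * (x 1 + 1) * (s - 1) := by linear_combination hs
  have e3 : (Nat.card G : ℤ) = Nat.card A * s * (x 1 * (x 1 + 1)) := by rw [e1, hs]; ring
  have s0 : 0 < s := by
    have := (pos_iff_pos_of_mul_pos (e3 ▸ g0)).2 hp
    exact (pos_iff_pos_of_mul_pos this).1 (by omega)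
  have s1 : (Nat.card A : ℤ) ∣ s - 1 := (c0.mul_left c1).symm.dvd_of_dvd_mul_left (e2 ▸ dvd_sum_class fc fun g hg => by
    have e : Out A B C g ∧ g ≠ 1 := by_contra fun e => hg (if_neg e)
    exact h.a.dvd_ci e.2 e.1.1)
  have t1 := ne_one_of_orderOf ht
  have t2 := h.out_inv ht
  have cg : (Nat.card G : ℤ) = cc t * ci t := by exact_mod_cast (cc_mul_ci t).symm
  have cp : (0 : ℤ) < cc t := by exact_mod_cast Nat.card_pos
  have hc : s * (x 1 - x t) ^ 2 = cc t ^ 2 := mul_left_cancel₀ (a := Nat.card A * (x 1 * (x 1 + 1)))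
    (by positivity) (by linear_combination hx.inv t ht - (x 1 - x t) ^ 2 * e3)
  have hy : Nat.card A * s * (x t * (x t + 1)) ≤ cc t * (s - 1) := by
    have := mul_le_mul_of_nonneg_left (ci_mul_le_sum fc f0 t) cp.le
    rw [e2, ← mul_assoc, ← cg, e3, show f t = x t * (x t + 1) from if_pos ⟨t2, t1⟩] at this
    exact le_of_mul_le_mul_left (by linarith) hp
  have hg : Nat.card A * s * (x 1 * (x 1 + 1)) ≤ 3 * (Nat.card A * (Nat.card B * Nat.card C)) ^ 2 := by
    rw [← e3]; exact_mod_cast h.ord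
  have hcop : IsCoprime (cc t : ℤ) (Nat.card A * (Nat.card B * Nat.card C)) := by
    exact_mod_cast Nat.isCoprime_iff_coprime.2 (h.cop t2 t1).symm
  have b4 := h.b4
  have c4 := h.symm.b4
  have hvw : v = -1 ∧ w = -1 := by
    by_contra e
    have a7 : (Nat.card A : ℤ) ≤ 7 := by omega
    have hK : (x 1 - x t) ^ 2 * (2 * Nat.card A + Nat.card B + Nat.card C - 4) ≤
        4 * Nat.card A * (x 1 * (x 1 + 1)) := by
      have e4 := h.sq_ci hx ht
      have e5 : (0 : ℤ) ≤ ∑ g ∈ univ.filter (Out A B C), (pr g : ℤ) := sum_nonneg fun _ _ => Nat.cast_nonneg _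
      refine le_of_mul_le_mul_left (le_of_mul_le_mul_left ?_ g0) s0
      have e6 := mul_le_mul_of_nonneg_left e5 (sq_nonneg (cc t : ℤ))
      have e7 : (Nat.card G : ℤ) ^ 2 = cc t ^ 2 * ci t ^ 2 := by rw [cg, mul_pow]
      nlinarith [congrArg (· * (cc t : ℤ) ^ 2) e4, congrArg (· * (Nat.card G : ℤ)) e3,
        congrArg (· * (Nat.card G * (2 * Nat.card A + Nat.card B + Nat.card C - 4) : ℤ)) hc]
    have h2 : (2 : ℤ) ∣ cc t := by
      exact_mod_cast ht ▸ orderOf_dvd_natCard _ (mem_centralizer_singleton_iff.2 rfl)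
    have key : ∀ {B' C' : Subgroup G} {v w : ℤ}, SSC B' → Nat.card B' = 9 → (Nat.card A : ℤ) = 7 →
        (Nat.card B * Nat.card C : ℤ) = 9 * 13 → (v = -1 ∨ v = 0) → (w = -1 ∨ w = 0) → 9 ∣ x 1 - v → 13 ∣ x 1 - w →
        v = -1 ∧ w = -1 := fun {B' C' v w} k0 k1 k2 k3 k4 k5 k6 k7 => by
      rw [k2, k3] at hg hcop
      rw [k2] at s1 hy hj
      refine small s0 s1 ⟨j, hj⟩ hp hg hc cp hy h2 (fun e => ?_) (fun e => ?_) (fun e => ?_) k4 k5 k6 k7
      · exact absurd (hcop.isUnit_of_dvd' e (by norm_num)) (by decide)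
      · exact absurd (hcop.isUnit_of_dvd' e (by norm_num)) (by decide)
      · have e1 : 27 ∣ Nat.card G := by exact_mod_cast e.trans hx.dg0
        have e2 := k0.coprime
        rw [← B'.card_mul_index, k1] at e1
        rw [k1] at e2
        exact absurd (Nat.dvd_gcd (show 3 ∣ 9 by norm_num) (show 3 ∣ B'.index by omega)) (by rw [e2]; decide)
    rcases lt_or_gt_of_ne h.ne with e4 | e4
    · obtain ⟨k1, k2, k3⟩ := small' a5 a7 h.a2 b4.2 b4.1 e4 c4.1 (lam (by omega) (by omega) (by omega) (by omega)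
        (by omega) w3 (w4 t ht) hK)
      exact e (key (C' := C) h.b (by omega) k1 (by rw [k2, k3]) (by omega) (by omega) (k2 ▸ v3) (k3 ▸ w3))
    · obtain ⟨k1, k2, k3⟩ := small' a5 a7 h.a2 c4.2 c4.1 e4 b4.1 (by
        have := lam (by omega) (by omega) (by omega) (by omega) (by omega) v3 (v4 t ht) hK
        rwa [add_right_comm] at this)
      exact e (key (C' := C) h.c (by omega) k1 (by rw [k2, k3]; rfl) (by omega) (by omega) (k2 ▸ w3) (k3 ▸ v3)).symm
  obtain ⟨rfl, rfl⟩ := hvw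
  have hP : (Nat.card B * Nat.card C : ℤ) ∣ x 1 + 1 := (Nat.isCoprime_iff_coprime.2 h.bc).mul_dvd v3 w3
  have P0 : (117 : ℤ) ≤ Nat.card B * Nat.card C := by
    have := h.ne
    rcases lt_or_gt_of_ne this with e | e
    · have := mul_le_mul b4.2 (show (13 : ℤ) ≤ Nat.card C by omega) (by omega) (by omega); omega
    · have := mul_le_mul (show (13 : ℤ) ≤ Nat.card B by omega) c4.2 (by omega) (by omega); omega
  obtain ⟨rfl, y0⟩ := HSz.generic a5 ao P0 s0 s1 ⟨j, hj⟩ hP hp hg hc cp hy (e3.symm.trans cg)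
    (by exact_mod_cast odd_ci hx ht) hcop
  refine ⟨v2, w2, y0, hP, by rw [e3, mul_one], fun g k1 k2 => eq_of_prod one_pos ?_⟩
  rw [sub_self, mul_zero, sum_eq_zero_iff_of_nonneg fun g _ => f0 g] at e2
  rw [one_mul, ← show f g = _ from if_pos ⟨k1, k2⟩, e2 g (mem_univ _)]

end Sys

end Cfsg.Lib.HSz
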