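import Cfsg.Agent.Lib.HSz.Main1

/-! The order of the group is prime to 3. -/

set_option autoImplicit false

namespace Cfsg.Lib.HSz
open Subgroup Finset Cfsg.Lib.Char Cfsg.Lib.OddChar Cfsg.Lib.Inv

variable {G : Type*} [Group G] [Fintype G] {A B C : Subgroup G} {x : G → ℤ} {g y t u : G}

open Classical in
/-- The number of involutions whose product with `u` lies outside. -/
noncomputable def nbr (A B C : Subgroup G) (u : G) : Finset G := (invs G).filter fun v => Out A B C (u * v)

open Classical in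
/-- The involutions commuting with `g`. -/
noncomputable def icm (g : G) : Finset G := (invs G).filter fun v => g * v = v * g

theorem mem_nb : g ∈ nbr A B C u ↔ orderOf g = 2 ∧ Out A B C (u * g) := by simp [nbr, mem_invs]
theorem mem_ic : u ∈ icm g ↔ orderOf u = 2 ∧ g * u = u * g := by simp [icm, mem_invs]

theorem card_nb_conj (u y : G) : #(nbr A B C (y * u * y⁻¹)) = #(nbr A B C u) :=
  (card_bijective (MulAut.conj y) (MulAut.conj y).bijective fun v => by
    rw [mem_nb, mem_nb, MulAut.conj_apply, orderOf_conj', show y * u * y⁻¹ * (y * v * y⁻¹) = y * (u * v) * y⁻¹ by group,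
      out_conj]).symm

omit [Fintype G] in
theorem frob_false [Finite G] (hB : SSC B) (ho : Odd (Nat.card B)) (h1 : 1 < Nat.card B) {S : Subgroup G} (hS : SSC S)
    {z : G} (hz : z ∈ S) (z1 : z ≠ 1) (he : S.relIndex (normalizer (S : Set G)) = 4 * Nat.card B) : False := by
  have ev : Even (S.relIndex (normalizer (S : Set G))) := by rw [he]; exact (show Even 4 by decide).mul_right _
  obtain ⟨u, hN, hu⟩ := hS.exists_inv ev
  obtain ⟨p, hp, hd⟩ := Nat.exists_prime_and_dvd h1.ne'
  have := Fact.mk hp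
  have p2 : p ≠ 2 := by rintro rfl; exact Nat.not_even_iff_odd.2 ho (even_iff_two_dvd.2 hd)
  obtain ⟨a, ha⟩ := exists_prime_orderOf_dvd_card' (G := normalizer (S : Set G) ⧸ S.subgroupOf (normalizer S)) p
    (by rw [← index, ← relIndex, he]; exact hd.mul_left 4)
  obtain ⟨a, rfl⟩ := QuotientGroup.mk_surjective a
  let u' : normalizer (S : Set G) := ⟨u, hN⟩
  have e1 : orderOf (u' : normalizer (S : Set G) ⧸ S.subgroupOf (normalizer S)) = 2 :=
    Inv.orderOf_eq_two_iff.2 ⟨fun e => hS.not_inA ev hu (.of_mem ((QuotientGroup.eq_one_iff u').1 e) (ne_one_of_orderOf hu)),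
      by rw [← QuotientGroup.mk_mul, show u' * u' = 1 from Subtype.ext (mul_self_of_orderOf hu)]; rfl⟩
  have e2 : Commute (u' : normalizer (S : Set G) ⧸ S.subgroupOf (normalizer S)) a := by
    rw [Commute, SemiconjBy, ← QuotientGroup.mk_mul, ← QuotientGroup.mk_mul, QuotientGroup.eq, mem_subgroupOf,
      ← hS.mem_iff hz z1]
    have k1 := hS.inverts ev hu hN hz
    have k2 := hS.inverts ev hu hN ((mem_normalizer_iff.1 a.2 _).1 (S.inv_mem hz))
    show (u * a)⁻¹ * (a * u) * z = z * ((u * a)⁻¹ * (a * u))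
    have k3 : u⁻¹ * (a * z⁻¹ * (a : G)⁻¹) * u = (a * z⁻¹ * (a : G)⁻¹)⁻¹ := by
      rw [← k2, inv_eq_of_orderOf hu]
    calc _ = (a : G)⁻¹ * (u⁻¹ * (a * (u * z * u⁻¹) * (a : G)⁻¹) * u) * a * ((u * a)⁻¹ * (a * u)) := by group
      _ = _ := by rw [k1, k3]; group
  have e3 := orderOf_map_dvd (QuotientGroup.mk' (S.subgroupOf (normalizer S))) (u' * a)
  rw [map_mul, QuotientGroup.mk'_apply, QuotientGroup.mk'_apply, e2.orderOf_mul_eq_mul_orderOf_of_coprime
    (by rw [e1, ha]; exact (Nat.coprime_primes Nat.prime_two hp).2 p2.symm), e1, ha, ← orderOf_coe] at e3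
  generalize ((u' * a : normalizer (S : Set G)) : G) = w at e3
  have e4 := hB.cc_eq (hB.of_prime hp hd (orderOf_pow_orderOf_div (orderOf_pos w).ne' ((dvd_mul_left p 2).trans e3)))
  refine Nat.not_even_iff_odd.2 ho (even_iff_two_dvd.2 (((dvd_mul_right 2 p).trans e3).trans ?_))
  rw [← e4]
  exact orderOf_dvd_natCard _ (mem_centralizer_singleton_iff.2 (Commute.self_pow w _))

namespace Sys
variable (h : Sys A B C) (hx : XD A x) (ht : orderOf t = 2)
include h hx ht

omit h in
theorem card_nb (hu : orderOf u = 2) : #(nbr A B C u) = #(nbr A B C t) := by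
  obtain ⟨y, rfl⟩ := isConj_iff.1 (hx.cj t u ht hu); exact card_nb_conj t y

omit h in
open Classical in
theorem sum_pr_out : ∑ g ∈ univ.filter (Out A B C), pr g = ci t * #(nbr A B C t) := by
  have := sum_pr (G := G) fun g => if Out A B C g then 1 else 0
  simp only [smul_eq_mul, mul_boole, ← sum_filter, sum_const, mul_one] at this
  rw [this, ← card_invs hx ht, ← smul_eq_mul, ← sum_const]
  exact sum_congr rfl fun u hu => (congrArg card rfl).trans (card_nb hx ht (mem_invs.1 hu))

omit hx ht in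
theorem ic_sub (hg : Out A B C g) (h1 : g ≠ 1) (hu : u ∈ icm g) : icm g ⊆ nbr A B C u := fun v hv =>
  mem_nb.2 ⟨(mem_ic.1 hv).1, h.out_comm hg h1 (by
    rw [← mul_assoc, (mem_ic.1 hu).2, mul_assoc, (mem_ic.1 hv).2, mul_assoc])⟩

theorem ic_le (hg : Out A B C g) (h1 : g ≠ 1) : #(icm g) ≤ #(nbr A B C t) := by
  rcases (icm g).eq_empty_or_nonempty with e | ⟨u, hu⟩
  · simp [e]
  · exact (card_le_card (h.ic_sub hg h1 hu)).trans (card_nb hx ht (mem_ic.1 hu).1).le

open Classical in
theorem data : ∃ (δ : ℤ) (k L : ℕ), (δ = 1 ∨ δ = -1) ∧ (cc t : ℤ) = k * (Nat.card B * Nat.card C) - δ ∧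
    Nat.card G = Nat.card A * (Nat.card B * Nat.card C) * cc t * k ∧ (Nat.card A : ℤ) ≤ cc t + 1 ∧
    4 * δ + k * (Nat.card A * (Nat.card B + Nat.card C) - 2 * (Nat.card B * Nat.card C)) =
      4 * Nat.card A * (Nat.card B * Nat.card C) * L ∧
    #(univ.filter fun g => Out A B C g ∧ x g = 0) + 1 = cc t ^ 2 ∧
    #(univ.filter fun g => Out A B C g ∧ x g = -1) = Nat.card A * (Nat.card B * Nat.card C) * cc t * L ∧
    (∀ g, Out A B C g → x g = -1 → g ≠ 1 ∧ cc g ∣ k) ∧ (∀ g, Out A B C g → x g = 0 → g ≠ 1 ∧ cc g ∣ cc t) ∧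
    k.Coprime (cc t) := by
  obtain ⟨e1, e2, e3, ⟨κ, hκ⟩, e5, e6⟩ := h.generic hx ht
  have g0 : (0 : ℤ) < Nat.card G := by exact_mod_cast Nat.card_pos
  have cp : (0 : ℤ) < cc t := by exact_mod_cast Nat.card_pos
  have N0 := h.pos
  have P0 : (81 : ℤ) ≤ Nat.card B * Nat.card C := by
    have := mul_le_mul h.b4.2 h.symm.b4.2 (by omega) (Nat.cast_nonneg _); omega
  have D0 : x 1 ≠ 0 := fun e => g0.ne' (zero_dvd_iff.1 (e ▸ hx.dg0))
  have D1 : x 1 ≠ -1 := fun e => g0.ne' (by rw [e5, e]; ring)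
  have e7 : x 1 ^ 2 = cc t ^ 2 := mul_left_cancel₀ g0.ne' (by
    have := hx.inv t ht
    rw [e3] at this; linear_combination this - cc t ^ 2 * e5)
  obtain ⟨δ, hδ, hD⟩ : ∃ δ : ℤ, (δ = 1 ∨ δ = -1) ∧ x 1 = δ * cc t :=
    (sq_eq_sq_iff_eq_or_eq_neg.1 e7).elim (fun e => ⟨1, .inl rfl, by omega⟩) fun e => ⟨-1, .inr rfl, by omega⟩
  have dd : δ * δ = 1 := by rcases hδ with rfl | rfl <;> rfl
  have hd : (cc t : ℤ) = δ * κ * (Nat.card B * Nat.card C) - δ := by linear_combination δ * (hκ - hD) - cc t * dd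
  obtain ⟨k, hk⟩ : ∃ k : ℕ, δ * κ = k := Int.eq_ofNat_of_zero_le (by
    by_contra! e
    have := mul_le_mul_of_nonneg_right (show δ * κ ≤ -1 by omega) (show (0 : ℤ) ≤ Nat.card B * Nat.card C by omega)
    omega)
  rw [hk] at hd
  have hg : (Nat.card G : ℤ) = Nat.card A * (Nat.card B * Nat.card C) * cc t * k := by
    rw [e5, hκ, hD, ← hk]; ring
  have hg' : Nat.card G = Nat.card A * (Nat.card B * Nat.card C) * cc t * k := by exact_mod_cast hg
  have hs : ∀ F : ℤ → ℤ, ∑ g ∈ univ.filter (Out A B C), F (x g) = F (x 1) +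
      #(univ.filter fun g => Out A B C g ∧ x g = 0) * F 0 + #(univ.filter fun g => Out A B C g ∧ x g = -1) * F (-1) :=
    fun F => by
      rw [sum_filter, sum_congr rfl fun g _ => show _ = (if g = 1 then F (x 1) else 0) +
        (if Out A B C g ∧ x g = 0 then F 0 else 0) + if Out A B C g ∧ x g = -1 then F (-1) else 0 from ?_]
      · simp only [sum_add_distrib, sum_ite_eq', mem_univ, if_true, ← sum_filter, sum_const, nsmul_eq_mul]
      · by_cases k1 : g = 1
        · simp [k1, out_one, D0, D1]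
        by_cases k2 : Out A B C g
        · rcases e6 g k2 k1 with k3 | k3 <;> simp [k1, k2, k3]
        · simp [k1, k2]
  have s1 := h.sum_eq hx.one e1 e2
  rw [hx.sum, hs fun z => z] at s1
  have s2 := h.sum_eq (f := fun g => x g ^ 2 - 1) (α := 0) (β := 0) (γ := 0) (fun g hg => by simp [hx.one g hg])
    (fun g hg => by simp [e1 g hg]) fun g hg => by simp [e2 g hg]
  rw [hs fun z => z ^ 2 - 1, sum_sub_distrib, hx.sq, sum_const, card_univ, ← Nat.card_eq_fintype_card] at s2
  have r1 : ∀ g, Out A B C g → x g = -1 → Nat.card A * (Nat.card B * Nat.card C) * cc t ∣ ci g := fun g k1 k2 =>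
    (h.cop (h.out_inv ht) (ne_one_of_orderOf ht)).mul_dvd_of_dvd_of_dvd (h.dvd_ci k1 (by rintro rfl; exact D1 k2)) (by
      have := hx.dv0 g
      rw [k2, hD, mul_neg_one, dvd_neg] at this
      exact_mod_cast (dvd_mul_left _ δ).trans this)
  obtain ⟨L, hL⟩ : Nat.card A * (Nat.card B * Nat.card C) * cc t ∣ #(univ.filter fun g => Out A B C g ∧ x g = -1) := by
    have := dvd_sum_class (f := fun g => if Out A B C g ∧ x g = -1 then 1 else 0)
      (fun g y => by simp [out_conj, hx.cls]) fun g hg => by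
        have e : Out A B C g ∧ x g = -1 := by_contra fun e => hg (if_neg e)
        exact r1 g e.1 e.2
    rw [sum_boole] at this
    exact_mod_cast this
  obtain ⟨j, hj⟩ := hx.dn
  refine ⟨δ, k, L, hδ, hd, hg', ?_, ?_, ?_, hL, fun g k1 k2 => ⟨by rintro rfl; exact D1 k2, ?_⟩,
    fun g k1 k2 => ⟨by rintro rfl; exact D0 k2, ?_⟩, ?_⟩
  · have := Int.le_of_dvd (b := |x 1 - 1|) (abs_pos.2 fun e => by
      have := mul_le_mul_of_nonneg_right (show (1 : ℤ) ≤ k from ?_) (show (0 : ℤ) ≤ Nat.card B * Nat.card C by omega)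
      · rcases hδ with rfl | rfl <;> omega
      · rcases k.eq_zero_or_pos with rfl | e
        · rw [hg] at g0; simp at g0
        · exact_mod_cast e) ((dvd_abs _ _).2 hx.dn)
    rcases hδ with rfl | rfl <;> rcases abs_cases (x 1 - 1) with e | e <;> omega
  · rw [hL, hg, hD] at s1
    push_cast at s1
    exact mul_left_cancel₀ (mul_pos N0 cp).ne' (by linear_combination -s1)
  · have : (#(univ.filter fun g => Out A B C g ∧ x g = 0) : ℤ) + 1 = cc t ^ 2 :=
      mul_left_cancel₀ (mul_pos (show (0 : ℤ) < 4 by decide) N0).ne' (by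
        rw [e7] at s2; simp only [nsmul_eq_mul] at s2; linear_combination s2)
    exact_mod_cast this
  · obtain ⟨i, hi⟩ := r1 g k1 k2
    have := cc_mul_ci g
    rw [hi, hg', mul_left_comm] at this
    exact ⟨i, (Nat.eq_of_mul_eq_mul_left (by exact_mod_cast mul_pos N0 cp) this).symm⟩
  · have c1 : IsCoprime (Nat.card A : ℤ) (x 1 + 1) := by
      rw [show x 1 + 1 = 2 + Nat.card A * j by omega]
      exact ((Int.isCoprime_two_left.2 (Int.odd_iff.2 h.a2)).add_mul_left_left j).symm
    obtain ⟨i, hi⟩ := c1.mul_dvd (Int.natCast_dvd_natCast.2 (h.a.dvd_ci (by rintro rfl; exact D0 k2) k1.1))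
      (by simpa [k2] using hx.dv1 g k1.1)
    have e : (cc g : ℤ) * ci g = Nat.card G := by exact_mod_cast cc_mul_ci g
    rw [hi, e5] at e
    have a0 : (Nat.card A : ℤ) * (x 1 + 1) ≠ 0 := mul_ne_zero (by have := h.a2; omega) (by omega)
    have e' : x 1 = cc g * i := mul_left_cancel₀ a0 (by linear_combination -e)
    exact Int.natCast_dvd_natCast.1 ⟨δ * i, by linear_combination δ * (e' - hD) - cc t * dd⟩
  · exact Nat.isCoprime_iff_coprime.1 ⟨δ * (Nat.card B * Nat.card C), -δ, by linear_combination -δ * hd + dd⟩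

open Classical in
theorem not_three (hbc : Nat.card B < Nat.card C) (hab : ∀ r : ℕ, r.Prime → r ≠ 2 →
    ¬ r ∣ Nat.card A * Nat.card B * Nat.card C → ∀ P : Sylow r G, IsMulCommutative P) : ¬ 3 ∣ Nat.card G := by
  obtain ⟨δ, k, L, hδ, hd, hg, had, hE, r0, r1, q1, q0, hk⟩ := h.data hx ht
  obtain ⟨-, -, e3, -, -, e6⟩ := h.generic hx ht
  have cp : 0 < cc t := Nat.card_pos
  have a5 : (5 : ℤ) ≤ Nat.card A := by exact_mod_cast h.na
  have b4 := h.b4
  have c4 := h.symm.b4
  have hi : ci t = Nat.card A * (Nat.card B * Nat.card C) * k :=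
    Nat.eq_of_mul_eq_mul_left cp (by rw [cc_mul_ci, hg]; ring)
  have ip : 0 < ci t := Nat.pos_of_ne_zero index_ne_zero_of_finite
  have ko : Odd k := (Nat.odd_mul.1 (hi ▸ odd_ci hx ht)).2
  have hB : 4 * (#(nbr A B C t) : ℤ) = 4 * Nat.card A * (k * (Nat.card B * Nat.card C)) -
      cc t * (2 * Nat.card A + Nat.card B + Nat.card C - 4) := by
    have e := h.sq_ci hx ht
    rw [← Nat.cast_sum, sum_pr_out hx ht, ← cc_mul_ci t] at e
    have e1 : (ci t : ℤ) = Nat.card A * (Nat.card B * Nat.card C) * k := by exact_mod_cast hi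
    exact mul_left_cancel₀ (a := (ci t : ℤ)) (by omega) (by push_cast at e; linear_combination -e + 4 * ci t * e1)
  have in0 : ∀ u g, orderOf u = 2 → g ≠ 1 → g * u = u * g → Out A B C g ∧ x g = 0 := fun u g hu k1 k2 => by
    have k3 := h.out_comm (h.out_inv hu) (ne_one_of_orderOf hu) k2.symm
    exact ⟨k3, (e6 g k3 k1).resolve_right fun e => Nat.not_even_iff_odd.2 (ko.of_dvd_nat (q1 g k3 e).2)
      (even_card_of_involution_mem hu (mem_centralizer_singleton_iff.2 k2.symm))⟩
  have hs : ∑ g ∈ univ.filter fun g => Out A B C g ∧ x g = 0, #(icm g) = ci t * (cc t - 1) := by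
    have := sum_card_bipartiteAbove_eq_sum_card_bipartiteBelow (s := univ.filter fun g => Out A B C g ∧ x g = 0)
      (t := invs G) fun g u => g * u = u * g
    rw [← card_invs hx ht, ← smul_eq_mul, ← sum_const]
    refine (sum_congr rfl fun g _ => congrArg card rfl).trans (this.trans (sum_congr rfl fun u hu => ?_))
    rw [cc, Inv.card_centralizer_eq_of_isConj (hx.cj t u ht (mem_invs.1 hu)), Nat.card_eq_fintype_card,
      Fintype.card_subtype, ← card_erase_of_mem (a := 1) (by simp)]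
    congr 1
    ext g
    simp only [bipartiteBelow, mem_filter, mem_univ, true_and, mem_erase, mem_centralizer_singleton_iff]
    exact ⟨fun e => ⟨(q0 g e.1.1 e.1.2).1, e.2⟩, fun e => ⟨in0 u g (mem_invs.1 hu) e.1 e.2, e.2⟩⟩
  have hle : ∀ g ∈ univ.filter fun g => Out A B C g ∧ x g = 0, #(icm g) ≤ #(nbr A B C t) := fun g hg =>
    h.ic_le hx ht (mem_filter.1 hg).2.1 (q0 g (mem_filter.1 hg).2.1 (mem_filter.1 hg).2.2).1
  have c2 : 2 ≤ cc t := Nat.le_of_dvd cp (even_card_of_involution_mem ht (mem_centralizer_singleton_iff.2 rfl)).two_dvd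
  have r0' : #(univ.filter fun g => Out A B C g ∧ x g = 0) = (cc t + 1) * (cc t - 1) := by
    rw [← Nat.sq_sub_sq]; omega
  rcases (Nat.succ_le_of_lt ko.pos).eq_or_lt with e | k1
  · obtain rfl : k = 1 := e.symm
    have L0 : L = 0 := by
      rw [card_eq_zero.2 (filter_eq_empty_iff.2 fun g _ e => (q1 g e.1 e.2).1 (orderOf_eq_one_iff.1 (Nat.dvd_one.1
        ((orderOf_dvd_natCard _ (mem_centralizer_singleton_iff.2 rfl)).trans (q1 g e.1 e.2).2)))),
        eq_comm, mul_eq_zero, ← mul_one (_ * cc t), ← hg] at r1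
      exact r1.resolve_left Nat.card_pos.ne'
    have e1 := sum_le_card_nsmul _ _ _ hle
    rw [hs, r0', smul_eq_mul, mul_right_comm] at e1
    have e2 := Nat.le_of_mul_le_mul_right e1 (by omega)
    rw [hi] at e2
    obtain ⟨k1, k2, k3, k4⟩ := case_one (B := #(nbr A B C t)) a5 h.a2 b4.2 b4.1 c4.2 c4.1 h.ne hδ (d := cc t)
      (by simpa using hd) (by rw [L0] at hE; push_cast at hE; linarith) (by simpa using hB) (by exact_mod_cast (by simpa using e2))
    have e4 := (sum_eq_sum_iff_of_le hle).1 (by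
      rw [hs, sum_const, r0', smul_eq_mul, hi]
      zify [show 1 ≤ cc t by omega]
      rw [k1, k2, k3]; ring)
    have e5 : ∀ u, orderOf u = 2 → icm u = nbr A B C u := fun u hu =>
      eq_of_subset_of_card_le (h.ic_sub (h.out_inv hu) (ne_one_of_orderOf hu) (mem_ic.2 ⟨hu, rfl⟩)) (by
        rw [card_nb hx ht hu, e4 u (mem_filter.2 ⟨mem_univ _, in0 u u hu (ne_one_of_orderOf hu) rfl⟩)])
    let Z : Subgroup G :=
      { carrier := {y | t * y = y * t ∧ y * y = 1}
        one_mem' := by simp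
        inv_mem' := fun {a} ha => by rwa [inv_eq_of_mul_self ha.2]
        mul_mem' := fun {a b} ha hb => ⟨by rw [← mul_assoc, ha.1, mul_assoc, hb.1, mul_assoc], by
          by_cases a1 : a = 1
          · simp [a1, hb.2]
          by_cases b1 : b = 1
          · simp [b1, ha.2]
          have a2 := Inv.orderOf_eq_two_iff.2 ⟨a1, ha.2⟩
          have b2 := Inv.orderOf_eq_two_iff.2 ⟨b1, hb.2⟩
          have := h.ic_sub (h.out_inv ht) (ne_one_of_orderOf ht) (mem_ic.2 ⟨a2, ha.1⟩) (mem_ic.2 ⟨b2, hb.1⟩)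
          rw [← e5 a a2] at this
          rw [mul_assoc, ← mul_assoc b, ← (mem_ic.1 this).2, mul_assoc, hb.2, mul_one, ha.2]⟩ }
    obtain ⟨w, hw⟩ := IsPGroup.iff_card.1 (show IsPGroup 2 Z from fun y => ⟨1, Subtype.ext (by
      simpa [pow_two] using y.2.2)⟩)
    have e7 : Nat.card Z = #(icm t) + 1 := by
      rw [Nat.card_eq_fintype_card, Fintype.card_subtype, ← card_erase_add_one (a := 1) (by simp)]
      congr 2
      ext y
      simp only [mem_erase, mem_filter, mem_univ, true_and, mem_ic, Inv.orderOf_eq_two_iff]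
      exact ⟨fun e => ⟨⟨e.1, e.2.2⟩, e.2.1⟩, fun e => ⟨e.1.1, e.2, e.1.2⟩⟩
    rw [e5 t ht, hw] at e7
    have e8 : (Nat.card A : ℤ) + 1 = 2 ^ w := by rw [← k1]; exact_mod_cast e7.symm
    have e9 : ¬ (3 : ℤ) ∣ Nat.card A + 1 := fun e => by
      have := Int.prime_three.dvd_of_dvd_pow (e8 ▸ e); omega
    have e10 : (Nat.card A : ℤ) % 3 = 1 := by
      have : ((Nat.card B : ℤ) - Nat.card C) ^ 2 % 3 ≠ 2 := by
        generalize (Nat.card B : ℤ) - Nat.card C = z
        obtain e | e | e : z % 3 = 0 ∨ z % 3 = 1 ∨ z % 3 = 2 := by omega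
        all_goals simp [pow_two, Int.mul_emod, e]
      omega
    intro e
    have e11 : (3 : ℤ) ∣ Nat.card A * (Nat.card B * Nat.card C) * cc t := by
      rw [hg, mul_one] at e; exact_mod_cast e
    rw [k2, k3] at e11
    have := Int.emod_eq_zero_of_dvd e11
    generalize (Nat.card A : ℤ) = a at this e10
    simp [pow_two, Int.mul_emod, Int.add_emod, e10] at this
  · have hB1 : #(nbr A B C t) ≤ 16 * cc t := by
      have e := (sum_le_sum fun g _ => card_pairs_le g).trans h.sum_cc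
      rw [sum_pr_out hx ht, ← cc_mul_ci t, ← mul_assoc, mul_comm] at e
      exact Nat.le_of_mul_le_mul_right e ip
    obtain ⟨s, hs1, hs2⟩ := Nat.exists_prime_and_dvd k1.ne'
    have := Fact.mk hs1
    obtain ⟨z, hz⟩ := exists_prime_orderOf_dvd_card' (G := G) s (hg ▸ hs2.mul_left _)
    have cN : ∀ D : Subgroup G, SSC D → D ∈ [A, B, C] → k.Coprime (Nat.card D) := fun D h1 h2 => by
      refine (h1.coprime.coprime_dvd_right (Nat.dvd_of_mul_dvd_mul_left (Nat.card_pos (α := D)) ?_)).symm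
      rw [D.card_mul_index, hg]
      refine Nat.mul_dvd_mul_right (Dvd.dvd.mul_right ?_ _) _
      simp only [List.mem_cons, List.not_mem_nil, or_false] at h2
      rcases h2 with rfl | rfl | rfl
      exacts [dvd_mul_right _ _, (dvd_mul_right _ _).mul_left _, (dvd_mul_left _ _).mul_left _]
    have in1 : ∀ g, g ≠ 1 → orderOf g ∣ k → Out A B C g ∧ x g = -1 := fun g k2 k3 => by
      have k4 : ∀ D : Subgroup G, SSC D → D ∈ [A, B, C] → ¬ InA D g := fun D h1 h2 e =>
        k2 (orderOf_eq_one_iff.1 (Nat.eq_one_of_dvd_coprimes (cN D h1 h2) k3 (h1.orderOf_dvd e)))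
      have k5 : Out A B C g := ⟨k4 A h.a (by simp), k4 B h.b (by simp), k4 C h.c (by simp)⟩
      exact ⟨k5, (e6 g k5 k2).resolve_left fun e => k2 (orderOf_eq_one_iff.1 (Nat.eq_one_of_dvd_coprimes hk k3
        ((orderOf_dvd_natCard _ (mem_centralizer_singleton_iff.2 rfl)).trans (q0 g k5 e).2)))⟩
    have z1 : z ≠ 1 := fun e => hs1.ne_one (by rw [← hz, e, orderOf_one])
    have z2 := in1 z z1 (hz ▸ hs2)
    have L1 : 0 < L := Nat.pos_of_ne_zero fun e => by
      rw [e, mul_zero, card_eq_zero] at r1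
      exact (r1 ▸ mem_filter.2 ⟨mem_univ z, z2⟩ : z ∈ (∅ : Finset G)) |> notMem_empty _
    obtain ⟨l1, l2⟩ := case_two (B := #(nbr A B C t)) (L := L) (k := k) (d := cc t) a5 b4.2 (by omega) hδ (by omega) hd
      (by
        have := h.ord
        rw [hg] at this
        exact le_of_mul_le_mul_left (by zify at this; linarith) h.pos) (by omega) hE hB (by omega) (by omega) had
    obtain rfl : L = 1 := by omega
    have hcl : univ.filter (IsConj z) ⊆ univ.filter fun g => Out A B C g ∧ x g = -1 := fun g hg => by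
      obtain ⟨y, rfl⟩ := isConj_iff.1 (mem_filter.1 hg).2
      simpa [out_conj, hx.cls] using z2
    have zk : cc z = k := by
      refine (Nat.le_of_dvd (by omega) (q1 z z2.1 z2.2).2).antisymm (Nat.le_of_mul_le_mul_right ?_
        (Nat.pos_of_ne_zero (index_ne_zero_of_finite (H := centralizer {z}))))
      have := card_le_card hcl
      rw [card_filter_isConj, r1, mul_one] at this
      rw [cc_mul_ci, hg, mul_comm _ k]
      exact Nat.mul_le_mul_left _ this
    have hcl' := eq_of_subset_of_card_le hcl (by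
      rw [card_filter_isConj, r1, mul_one]
      exact (Nat.eq_of_mul_eq_mul_left (show 0 < k by omega) (by rw [mul_comm, ← hg, ← cc_mul_ci z, zk])).le)
    have cj : ∀ y ∈ centralizer ({z} : Set G), y ≠ 1 → IsConj z y := fun y hy y1 =>
      (mem_filter.1 (hcl' ▸ mem_filter.2 ⟨mem_univ y, in1 y y1 (zk ▸ orderOf_dvd_natCard _ hy)⟩ :
        y ∈ univ.filter (IsConj z))).2
    have pS : IsPGroup s (centralizer ({z} : Set G)) := fun y => ⟨1, by
      by_cases e : y = 1
      · simp [e]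
      · rw [pow_one, ← hz, orderOf_eq_of_isConj (cj y y.2 fun e1 => e (Subtype.ext e1)), orderOf_coe,
          pow_orderOf_eq_one]⟩
    obtain ⟨P, hP⟩ := pS.exists_le_sylow
    have := hab s hs1 (by rintro rfl; exact Nat.not_even_iff_odd.2 ko (even_iff_two_dvd.2 hs2)) (fun e =>
      hs1.ne_one (Nat.eq_one_of_dvd_coprimes (((cN A h.a (by simp)).mul_right (cN B h.b (by simp))).mul_right
        (cN C h.c (by simp))) hs2 e)) P
    have hS : SSC (centralizer ({z} : Set G)) := fun y hy y1 => (eq_of_le_of_card_ge (fun w hw =>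
      mem_centralizer_singleton_iff.2 (congrArg Subtype.val (mul_comm' (⟨w, hP hw⟩ : P) ⟨y, hP hy⟩)))
      (Inv.card_centralizer_eq_of_isConj (cj y hy y1)).ge).symm
    have z3 : z ∈ centralizer ({z} : Set G) := mem_centralizer_singleton_iff.2 rfl
    refine (frob_false h.b (h.b.odd h.eb) (by have := h.nb; omega) hS z3 z1 ?_).elim
    have e1 := hS.card_inA
    rw [show univ.filter (InA (centralizer {z})) = univ.filter (IsConj z) from filter_congr fun g _ =>
      ⟨fun ⟨g1, y, hy⟩ => (cj _ hy (conj_ne_one g1 y)).trans (isConj_iff.2 ⟨y, rfl⟩).symm, fun e => by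
        obtain ⟨y, rfl⟩ := isConj_iff.1 e; exact (InA.of_mem z3 z1).conj y⟩, card_filter_isConj,
      ← BG.card_mul_relIndex le_normalizer, ← mul_assoc, index_mul_card, ← Nat.mul_succ] at e1
    have := Nat.eq_of_mul_eq_mul_left Nat.card_pos e1
    rw [← cc, zk] at this
    omega

end Sys

end Cfsg.Lib.HSz
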